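import Cfsg.Agent.H20.C3Spec

/-! C3 tower (row S5227): the normalizer of `W` normalizes `V₁`. -/

set_option autoImplicit false
set_option linter.unusedSectionVars false
set_option linter.unusedSimpArgs false

namespace H7.C3NW

open Subgroup Matrix H20.C3

abbrev V6 := Fin 6 → F3

variable {X : Type} [Group X] [Finite X] {ρ : X →* Matrix (Fin 6) (Fin 6) F3} {j : F3 → F3 → F3 → X}
  {H : Subgroup X}

theorem inv_of_mul {p : X → Prop} (h1 : p 1) (hm : ∀ a b, p a → p b → p (a * b)) {a : X} (h : p a) :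
    p a⁻¹ := by
  have k : ∀ n : ℕ, p (a ^ n) := fun n => by
    induction n with
    | zero => rwa [pow_zero]
    | succ n ih => rw [pow_succ]; exact hm _ _ ih h
  have := k (orderOf a - 1)
  rwa [show a ^ (orderOf a - 1) = a⁻¹ from eq_inv_of_mul_eq_one_left (by
    rw [← pow_succ, Nat.sub_add_cancel (orderOf_pos a), pow_orderOf_eq_one])] at this

variable (ρ) in
/-- the stabilizer of a flag -/
def stab (F : ℕ → Submodule F3 V6) (m : ∀ i, F i ≤ F (i + 1)) : Subgroup X :=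
  have hm : ∀ a b : X, (∀ i, ∀ v ∈ F (i + 1), ρ a *ᵥ v - v ∈ F i) → (∀ i, ∀ v ∈ F (i + 1), ρ b *ᵥ v - v ∈ F i) →
      ∀ i, ∀ v ∈ F (i + 1), ρ (a * b) *ᵥ v - v ∈ F i := fun a b ha hb i v hv => by
    rw [map_mul, ← mulVec_mulVec, ← sub_add_sub_cancel _ (ρ b *ᵥ v)]
    exact add_mem (ha i _ (by simpa using add_mem (m i (hb i v hv)) hv)) (hb i v hv)
  have h1 : ∀ i, ∀ v ∈ F (i + 1), ρ 1 *ᵥ v - v ∈ F i := fun i v _ => by simp
  { carrier := {x | ∀ i, ∀ v ∈ F (i + 1), ρ x *ᵥ v - v ∈ F i}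
    one_mem' := h1
    mul_mem' := fun {a b} => hm a b
    inv_mem' := fun {_} => inv_of_mul (p := fun x => ∀ i, ∀ v ∈ F (i + 1), ρ x *ᵥ v - v ∈ F i) h1 hm }

theorem stab_p (inj : Function.Injective ρ) {F : ℕ → Submodule F3 V6} (m : ∀ i, F i ≤ F (i + 1))
    (h0 : F 0 = ⊥) (h9 : F 9 = ⊤) : IsPGroup 3 (stab ρ F m) := fun x => ⟨2, Subtype.ext (inj (by
  have k : ∀ n, ∀ v ∈ F n, (ρ x - 1) ^ n *ᵥ v = 0 := fun n => by
    induction n with
    | zero => intro v hv; rw [h0] at hv; simpa using hv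
    | succ n ih => intro v hv; rw [pow_succ, ← mulVec_mulVec, sub_mulVec, one_mulVec]; exact ih _ (x.2 n v hv)
  have e : (ρ x - 1) ^ 9 = 0 := Matrix.ext_of_mulVec_single fun i => by
    rw [k 9 _ (h9 ▸ trivial), zero_mulVec]
  have : Fact (Nat.Prime 3) := ⟨Nat.prime_three⟩
  have := sub_pow_char_pow_of_commute (p := 3) (n := 2) (Commute.one_right (ρ x))
  rw [show 3 ^ 2 = 9 from rfl, e, one_pow, eq_comm, sub_eq_zero] at this
  rw [SubmonoidClass.coe_pow, map_pow, OneMemClass.coe_one, map_one]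
  exact this))⟩

/-- `W` -/
def Wm : Submodule F3 V6 where
  carrier := {v | v 0 = 0 ∧ v 1 = 0 ∧ v 2 = 0}
  add_mem' := fun ha hb => by simp_all
  zero_mem' := by simp
  smul_mem' := fun c v hv => by simp_all

/-- `A₅` -/
def A5m : Submodule F3 V6 where
  carrier := {v | v 0 = 0}
  add_mem' := fun ha hb => by simp_all
  zero_mem' := by simp
  smul_mem' := fun c v hv => by simp_all

theorem mem_Wm {v : V6} : v ∈ Wm ↔ v 0 = 0 ∧ v 1 = 0 ∧ v 2 = 0 := Iff.rfl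
theorem mem_A5m {v : V6} : v ∈ A5m ↔ v 0 = 0 := Iff.rfl

theorem jmul (h : SEm uM ρ j H) (a b d A B D : F3) : j a b d * j A B D = j (a + A) (b + B) (d + D + a * B) :=
  h.inj (by
    rw [map_mul, h.rj, h.rj, h.rj]
    ext i k
    fin_cases i <;> fin_cases k <;> simp [uM, Matrix.mul_apply, Fin.sum_univ_succ] <;> ring)

theorem jone (h : SEm uM ρ j H) : j 0 0 0 = 1 := by
  have := jmul h 0 0 0 0 0 0
  simpa using this

/-- a `3`-subgroup centralizing `W` has order at most nine -/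
theorem small (h : SEm uM ρ j H) {P : Subgroup X} (hP : IsPGroup 3 P) (hW : ∀ x ∈ P, ∀ w ∈ Wm, ρ x *ᵥ w = w) :
    Nat.card P ≤ 9 := by
  have : Fact (Nat.Prime 3) := ⟨Nat.prime_three⟩
  let U : Subgroup X :=
    { carrier := {x | ∃ a b d, x = j a b d}
      one_mem' := ⟨0, 0, 0, (jone h).symm⟩
      mul_mem' := by rintro _ _ ⟨a, b, d, rfl⟩ ⟨A, B, D, rfl⟩; exact ⟨_, _, _, jmul h ..⟩
      inv_mem' := by
        rintro _ ⟨a, b, d, rfl⟩
        exact ⟨-a, -b, a * b - d, inv_eq_of_mul_eq_one_right (by rw [jmul h, ← jone h]; congr 1 <;> ring)⟩ }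
  have hU : IsPGroup 3 U := fun ⟨_, a, b, d, rfl⟩ => ⟨1, Subtype.ext (by
    change j a b d ^ 3 = 1
    rw [pow_three, jmul h, jmul h, ← jone h]
    congr 1 <;> revert a b d <;> decide)⟩
  obtain ⟨S, hS⟩ := hP.exists_le_sylow
  obtain ⟨S', hS'⟩ := hU.exists_le_sylow
  obtain ⟨x, rfl⟩ := MulAction.exists_smul_eq X S' S
  obtain ⟨k, hk⟩ := IsPGroup.iff_card.1 hP
  obtain ⟨m, hm⟩ := IsPGroup.iff_card.1 (x • S').isPGroup'
  by_contra hc
  have k3 : 3 ≤ k := by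
    by_contra e
    exact hc (hk ▸ Nat.pow_le_pow_right (n := 3) (by norm_num) (show k ≤ 2 by omega))
  have m3 : m ≤ 3 := by
    by_contra e
    exact h.syl ((pow_dvd_pow 3 (show 4 ≤ m by omega)).trans (hm ▸ card_subgroup_dvd_card _))
  have e : P = (x • S' : Sylow 3 X) := eq_of_le_of_card_ge hS (by
    rw [hk, hm]; exact Nat.pow_le_pow_right (by norm_num) (m3.trans k3))
  have fx : ∀ w ∈ Wm, ∀ a b d, uM a b d *ᵥ (ρ x⁻¹ *ᵥ w) = ρ x⁻¹ *ᵥ w := fun w hw a b d => by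
    have : x * j a b d * x⁻¹ ∈ P := by
      rw [e, Sylow.coe_subgroup_smul]
      exact smul_mem_pointwise_smul _ (MulAut.conj x) _ (hS' ⟨a, b, d, rfl⟩)
    conv_rhs => rw [← hW _ this w hw]
    rw [mulVec_mulVec, mulVec_mulVec, ← h.rj, ← map_mul, ← map_mul, ← mul_assoc, ← mul_assoc, inv_mul_cancel,
      one_mul]
  have fz : ∀ w ∈ Wm, (ρ x⁻¹ *ᵥ w) 5 = 0 → w = 0 := fun w hw h5 => by
    have e1 := fx w hw 1 0 0
    have e2 := fx w hw 0 1 0
    have : ρ x⁻¹ *ᵥ w = 0 := by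
      generalize ρ x⁻¹ *ᵥ w = y at e1 e2 h5
      have a2 := congrFun e1 2
      have a4 := congrFun e1 4
      have a5 := congrFun e1 5
      have b1 := congrFun e2 1
      have b4 := congrFun e2 4
      simp [uM, mulVec, dotProduct, Fin.sum_univ_succ] at a2 a4 a5 b1 b4
      have : y 4 = 0 := by
        rw [a4, h5] at a5
        have t3 : (3 : F3) = 0 := rfl
        linear_combination -a5 + y 4 * t3
      ext i
      fin_cases i <;> simp [*]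
    rw [← one_mulVec w, ← map_one ρ, ← mul_inv_cancel x, map_mul, ← mulVec_mulVec, this, mulVec_zero]
  have e3 := fz ((ρ x⁻¹ *ᵥ Pi.single 4 1) 5 • Pi.single 3 1 - (ρ x⁻¹ *ᵥ Pi.single 3 1) 5 • Pi.single 4 1)
    (by simp [mem_Wm]) (by rw [mulVec_sub, mulVec_smul, mulVec_smul]; simp [mul_comm])
  have := fz (Pi.single 3 1) (by simp [mem_Wm]) (by simpa using congrFun e3 4)
  simpa using congrFun this 3

/-- the flag `A > A₅ > W + ⟨u⟩ > W > 0` -/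
def fl (u : V6) : ℕ → Submodule F3 V6
  | 0 => ⊥ | 1 => Wm | 2 => Wm ⊔ Submodule.span F3 {u} | 3 => A5m | _ => ⊤

theorem fl_mono {u : V6} (hu : u 0 = 0) (i : ℕ) : fl u i ≤ fl u (i + 1) := by
  rcases i with _ | _ | _ | _ | i
  exacts [bot_le, le_sup_left, sup_le (fun _ h => h.1) ((Submodule.span_singleton_le_iff_mem _ _).2 hu), le_top,
    le_top]

theorem mem_fl {u : V6} (hu : u 0 = 0) {x : X} (h0 : ∀ w ∈ Wm, ρ x *ᵥ w = w) (h1 : ρ x *ᵥ u - u ∈ Wm)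
    (h2 : ∀ v ∈ A5m, ρ x *ᵥ v - v ∈ Wm ⊔ Submodule.span F3 {u}) (h3 : ∀ v, ρ x *ᵥ v - v ∈ A5m) :
    x ∈ stab ρ (fl u) (fl_mono hu) := fun i v hv => by
  rcases i with _ | _ | _ | _ | i
  · exact sub_eq_zero.2 (h0 v hv)
  · obtain ⟨w, hw, _, hz, rfl⟩ := Submodule.mem_sup.1 hv
    obtain ⟨c, rfl⟩ := Submodule.mem_span_singleton.1 hz
    rw [mulVec_add, h0 w hw, mulVec_smul, add_sub_add_left_eq_sub, ← smul_sub]
    exact Wm.smul_mem c h1
  · exact h2 v hv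
  · exact h3 v
  · trivial

theorem uM_W (b d : F3) {w : V6} (hw : w ∈ Wm) : uM 0 b d *ᵥ w = w := by
  ext i
  fin_cases i <;> simp [uM, mulVec, dotProduct, Fin.sum_univ_succ, hw.1, hw.2.1, hw.2.2]

theorem uM_q (b d : F3) (v : V6) : uM 0 b d *ᵥ v - v - v 0 • ![0, b, d, 0, 0, 0] ∈ Wm := by
  refine ⟨?_, ?_, ?_⟩ <;> simp only [Pi.sub_apply, Pi.smul_apply] <;>
    simp [uM, mulVec, dotProduct, Fin.sum_univ_succ, mul_comm]

theorem eq_j (h : SEm uM ρ j H) {u : V6} (hu : u 0 = 0) {x : X} (hx : x ∈ stab ρ (fl u) (fl_mono hu)) :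
    ∃ b d, x = j 0 b d := by
  have k : ∀ b d, ∀ v ∈ A5m, ρ (j 0 b d) *ᵥ v - v ∈ Wm := fun b d v hv => by
    have := uM_q b d v
    rwa [show v 0 = 0 from hv, zero_smul, sub_zero, ← h.rj] at this
  let f : F3 × F3 → stab ρ (fl u) (fl_mono hu) := fun y => ⟨j 0 y.1 y.2, mem_fl hu
    (fun w hw => by rw [h.rj, uM_W _ _ hw]) (k _ _ u hu) (fun v hv => Submodule.mem_sup_left (k _ _ v hv))
    fun v => by simpa [h.rj, mem_A5m] using (uM_q y.1 y.2 v).1⟩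
  have hf : Function.Injective f := fun y z e => by
    have := congrArg ρ (congrArg Subtype.val e)
    rw [h.rj, h.rj] at this
    exact Prod.ext (congrFun (congrFun this 1) 0) (congrFun (congrFun this 2) 0)
  obtain ⟨y, e⟩ := (hf.bijective_of_nat_card_le (by
    rw [Nat.card_prod, Nat.card_zmod]
    exact small h (stab_p h.inj _ rfl rfl) fun x hx w hw => sub_eq_zero.1 (hx 0 w hw))).2 ⟨x, hx⟩
  exact ⟨y.1, y.2, (congrArg Subtype.val e).symm⟩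

theorem jobNW : JobNW := fun X _ _ ρ j H h g hg => by
  have hg : ∀ w ∈ Wm, ρ g *ᵥ w ∈ Wm := fun w hw => hg w hw.1 hw.2.1 hw.2.2
  have hg' : ∀ w ∈ Wm, ρ g⁻¹ *ᵥ w ∈ Wm :=
    inv_of_mul (p := fun x => ∀ w ∈ Wm, ρ x *ᵥ w ∈ Wm) (fun w hw => by simpa using hw)
      (fun a b ha hb w hw => by rw [map_mul, ← mulVec_mulVec]; exact ha _ (hb w hw)) hg
  have c1 : ∀ v, ρ g *ᵥ (ρ g⁻¹ *ᵥ v) = v := fun v => by
    rw [mulVec_mulVec, ← map_mul, mul_inv_cancel, map_one, one_mulVec]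
  have c2 : ∀ v, ρ g⁻¹ *ᵥ (ρ g *ᵥ v) = v := fun v => by
    rw [mulVec_mulVec, ← map_mul, inv_mul_cancel, map_one, one_mulVec]
  have ev : ∀ b d v, ρ (g * j 0 b d * g⁻¹) *ᵥ v = ρ g *ᵥ (uM 0 b d *ᵥ (ρ g⁻¹ *ᵥ v)) := fun b d v => by
    rw [map_mul, map_mul, h.rj, mulVec_mulVec, mulVec_mulVec]
  have t0 : ∀ b d, ∀ w ∈ Wm, ρ (g * j 0 b d * g⁻¹) *ᵥ w = w := fun b d w hw => by
    rw [ev, uM_W _ _ (hg' w hw), c1]
  have t1 : ∀ b d v, ρ (g * j 0 b d * g⁻¹) *ᵥ v - v - (ρ g⁻¹ *ᵥ v) 0 • ρ g *ᵥ ![0, b, d, 0, 0, 0] ∈ Wm :=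
    fun b d v => by
      have := hg _ (uM_q b d (ρ g⁻¹ *ᵥ v))
      rwa [mulVec_sub, mulVec_sub, mulVec_smul, c1, ← ev] at this
  have t2 : ∀ b d, (ρ g *ᵥ ![0, b, d, 0, 0, 0]) 0 = 0 → ∃ b' d', g * j 0 b d * g⁻¹ = j 0 b' d' := fun b d hu =>
    eq_j h hu (mem_fl hu (t0 b d) (by simpa [c2] using t1 b d (ρ g *ᵥ ![0, b, d, 0, 0, 0]))
      (fun v _ => by
        have := add_mem (Submodule.mem_sup_left (t1 b d v)) (Submodule.mem_sup_right (Submodule.smul_mem _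
          ((ρ g⁻¹ *ᵥ v) 0) (Submodule.mem_span_singleton_self (R := F3) (ρ g *ᵥ ![0, b, d, 0, 0, 0]))))
        rwa [sub_add_cancel] at this)
      fun v => by
        have := (t1 b d v).1
        rwa [Pi.sub_apply, Pi.smul_apply, hu, smul_zero, sub_zero] at this)
  obtain ⟨b, d, hn, hu⟩ : ∃ b d : F3, ¬ (b = 0 ∧ d = 0) ∧ (ρ g *ᵥ ![0, b, d, 0, 0, 0]) 0 = 0 := by
    by_cases e : ρ g 0 1 = 0
    · exact ⟨1, 0, by simp, by simp [mulVec, dotProduct, Fin.sum_univ_succ, e]⟩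
    · exact ⟨-ρ g 0 2, ρ g 0 1, fun k => e k.2, by simp [mulVec, dotProduct, Fin.sum_univ_succ]; ring⟩
  have hφ : ∀ v ∈ A5m, (ρ g⁻¹ *ᵥ v) 0 = 0 := fun v hv => by
    obtain ⟨b', d', e⟩ := t2 b d hu
    have e1 := t1 b d v
    have e2 := uM_q b' d' v
    rw [show v 0 = 0 from hv, zero_smul, sub_zero] at e2
    rw [e, h.rj] at e1
    have e3 := hg' _ (sub_mem e2 e1)
    rw [sub_sub_cancel, mulVec_smul, c2] at e3
    by_contra hc
    exact hn ⟨by simpa [hc] using e3.2.1, by simpa [hc] using e3.2.2⟩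
  have hφ' : ∀ v ∈ A5m, ρ g *ᵥ v ∈ A5m := by
    have := inv_of_mul (p := fun x => ∀ w ∈ A5m, ρ x *ᵥ w ∈ A5m) (fun w hw => by simpa using hw)
      (fun a b ha hb w hw => by rw [map_mul, ← mulVec_mulVec]; exact ha _ (hb w hw)) hφ
    rwa [inv_inv] at this
  exact fun b d => t2 b d (hφ' _ rfl)

end H7.C3NW
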