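/- Tower DG, job E7: a character of degree `45 * 1066` of `O₈⁻(3)`. -/
import Cfsg.Agent.H53.DGPt

set_option autoImplicit false

namespace H7.DGE7

open Cfsg H28 H53.DG Matrix Module Finset

variable {F V : Type} [Field F] [AddCommGroup V] [Module F V]

theorem smul_pt_iff (S : FS F V) (g : S.I) {v w : V} {h0 : v ≠ 0} {hQ : S.Q v = 0} {h0' : w ≠ 0}
    {hQ' : S.Q w = 0} : g • S.pt v h0 hQ = S.pt w h0' hQ' ↔ ∃ c : F, c • g.1 v = w := by
  rw [S.smul_pt_eq g (h0' := g.1.map_ne_zero_iff.2 h0) (hQ' := (S.I_Q g v).trans hQ)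
    (one_smul F _).symm, S.pt_eq_iff]

theorem xm_of_not {k : ℕ} (σ : GL (Fin k) F → ℂ) {m : Matrix (Fin k) (Fin k) F} (h : ¬ IsUnit m) :
    xm σ m = 0 := Function.extend_apply' _ _ _ h

theorem xm_neg {k : ℕ} {σ : GL (Fin k) F → ℂ} (h : ∀ a, σ (-a) = -σ a) (m : Matrix (Fin k) (Fin k) F) :
    xm σ (-m) = -xm σ m := by
  by_cases hm : IsUnit m
  · obtain ⟨a, rfl⟩ := hm
    rw [← Units.val_neg, xm_apply, xm_apply, h]
  · rw [xm_of_not σ hm, xm_of_not σ (by rwa [IsUnit.neg_iff]), neg_zero]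

/-- A similitude with multiplier `-1` can be chosen to fix two given points. -/
theorem exists_sim [FiniteDimensional F V] (S : FS F V) (θ : V ≃ₗ[F] V)
    (hB : ∀ u v, S.B (θ u) (θ v) = -S.B u v) (hQ : ∀ v, S.Q (θ v) = -S.Q v) {v w : V} (v0 : v ≠ 0)
    (vQ : S.Q v = 0) (w0 : w ≠ 0) (wQ : S.Q w = 0) :
    ∃ θ : V ≃ₗ[F] V, (∀ u v, S.B (θ u) (θ v) = -S.B u v) ∧ (∀ v, S.Q (θ v) = -S.Q v) ∧
      (∃ c : F, c • θ v = v) ∧ ∃ c : F, c • θ w = w := by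
  have v0' : θ v ≠ 0 := θ.map_ne_zero_iff.2 v0
  have w0' : θ w ≠ 0 := θ.map_ne_zero_iff.2 w0
  have vQ' : S.Q (θ v) = 0 := by rw [hQ, vQ, neg_zero]
  have wQ' : S.Q (θ w) = 0 := by rw [hQ, wQ, neg_zero]
  have h1 : (∃ c : F, c • θ v = θ w) ↔ ∃ c : F, c • v = w := by
    simp only [← map_smul, θ.injective.eq_iff]
  obtain ⟨g, h2, h3⟩ : ∃ g : S.I, g • S.pt _ v0' vQ' = S.pt v v0 vQ ∧
      g • S.pt _ w0' wQ' = S.pt w w0 wQ := by
    by_cases h : ∃ c : F, c • v = w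
    · obtain ⟨g, hg⟩ := S.trans_pt (S.pt _ v0' vQ') (S.pt v v0 vQ)
      exact ⟨g, hg, by rw [← (S.pt_eq_iff (h0 := v0') (hQ := vQ')).2 (h1.2 h), hg, S.pt_eq_iff.2 h]⟩
    · obtain ⟨g, hg⟩ := S.pt_top.pair (S.pt _ v0' vQ') (S.pt _ w0' wQ') (S.pt v v0 vQ) (S.pt w w0 wQ)
        (S.pt_eq_iff.not.2 (h1.not.2 h)) (S.pt_eq_iff.not.2 h)
        (by rw [S.R_pt, S.R_pt, h1, hB, neg_eq_zero])
      exact ⟨g, hg⟩
  exact ⟨θ.trans g.1, fun u v => (S.I_B g _ _).trans (hB u v), fun v => (S.I_Q g _).trans (hQ v),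
    (smul_pt_iff S g).1 h2, (smul_pt_iff S g).1 h3⟩

open Classical in
theorem sum_zero [Fintype F] [Fintype V] (sc : JobSC) (S : FS F V) {k : ℕ} {σ : GL (Fin k) F → ℂ}
    (hσ : ∀ a, σ (-a) = -σ a) (θ : V ≃ₗ[F] V) (hB : ∀ u v, S.B (θ u) (θ v) = -S.B u v)
    (hQ : ∀ v, S.Q (θ v) = -S.Q v) {τ : S.I → ℂ} (hτ : IsIrrCharacter _ τ) (hle : S.Le τ)
    (hex : ∀ u φ, S.Adm k u φ → IsUnit φ → ∃ h : S.I, ∀ v, h.1 v = S.hol k u φ v) :
    ∑ d : (Fin k → V) × Matrix (Fin k) (Fin k) F with S.Adm k d.1 d.2,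
      xm σ d.2 * S.xt τ (S.hol k d.1 d.2) = 0 := by
  have : FiniteDimensional F V := Module.Finite.of_finite
  choose! h hh using fun d : (Fin k → V) × Matrix (Fin k) (Fin k) F => hex d.1 d.2
  obtain ⟨τ', hτ', e⟩ := hle
  rw [← zero_mul (τ 1), ← sc S.I S.Pt _ (univ.filter fun d => S.Adm k d.1 d.2) (fun d => xm σ d.2) h 0
    τ τ' (fun x y => ?_) hτ hτ' e]
  · refine sum_congr rfl fun d hd => ?_
    by_cases hu : IsUnit d.2
    · rw [← S.xt_apply τ (h d), funext (hh d (mem_filter.1 hd).2 hu)]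
    · rw [xm_of_not σ hu, zero_mul, zero_mul]
  obtain ⟨v, v0, vQ, rfl⟩ := S.exists_pt x
  obtain ⟨w, w0, wQ, rfl⟩ := S.exists_pt y
  obtain ⟨θ, hB, hQ, ⟨a, ha⟩, b, hb⟩ := exists_sim S θ hB hQ v0 vQ w0 wQ
  have a0 : a ≠ 0 := fun e => v0 (by rw [← ha, e, zero_smul])
  have b0 : b ≠ 0 := fun e => w0 (by rw [← hb, e, zero_smul])
  have h1 : ∀ d : (Fin k → V) × Matrix (Fin k) (Fin k) F,
      S.Adm k d.1 d.2 ↔ S.Adm k (θ ∘ d.1) (-d.2) := fun d => by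
    simp only [FS.Adm, Function.comp, hB, hQ, Matrix.neg_apply, mul_neg, ← neg_add, neg_eq_zero]
  rw [ite_self, ← CharZero.neg_eq_self_iff, ← sum_neg_distrib]
  refine sum_equiv ((Equiv.refl (Fin k)).arrowCongr θ.toEquiv |>.prodCongr (Equiv.neg _))
    (fun d => by simpa using! h1 d) fun d hd => ?_
  change _ = if h (θ ∘ d.1, -d.2) • _ = _ then xm σ (-d.2) else 0
  rw [xm_neg hσ]
  by_cases hu : IsUnit d.2
  · have h2 : (h (θ ∘ d.1, -d.2)).1 v = a • θ ((h d).1 v) := by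
      conv_lhs => rw [← ha, map_smul]
      rw [hh _ ((h1 d).1 (mem_filter.1 hd).2) hu.neg, hh d (mem_filter.1 hd).2 hu]
      simp only [FS.hol, Function.comp, hB, map_add, map_sum, map_smul]
      rw [show (fun j => -S.B v (d.1 j)) = -fun j => S.B v (d.1 j) from rfl,
        show (-d.2)⁻¹ = -d.2⁻¹ from inv_eq_right_inv (by
          rw [neg_mul_neg, mul_nonsing_inv _ ((isUnit_iff_isUnit_det _).1 hu)]), neg_mulVec_neg]
    rw [apply_ite Neg.neg, neg_zero]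
    refine if_congr ?_ rfl rfl
    rw [smul_pt_iff, smul_pt_iff, h2]
    constructor
    · rintro ⟨c, hc⟩
      exact ⟨b * c * a⁻¹, by rw [smul_smul, inv_mul_cancel_right₀ a0, mul_smul, ← map_smul, hc, hb]⟩
    · rintro ⟨c, hc⟩
      refine ⟨b⁻¹ * (c * a), θ.injective ?_⟩
      rw [map_smul, mul_smul, mul_smul, hc, inv_smul_eq_iff₀ b0, hb]
  · simp [xm_of_not σ hu]

theorem exists_sim_two {a b : ZMod 3} (h : An2 a b) : ∃ θ : EV (ZMod 3) 2 (Fin 2 → ZMod 3) ≃ₗ[ZMod 3] _,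
    (∀ u v, ((two h).ext 2).B (θ u) (θ v) = -((two h).ext 2).B u v) ∧
      ∀ v, ((two h).ext 2).Q (θ v) = -((two h).ext 2).Q v := by
  obtain ⟨α, β, γ, δ, e⟩ : ∃ α β γ δ : ZMod 3, ∀ x y : ZMod 3, (α * x + β * y) ^ 2 +
      a * (α * x + β * y) * (γ * x + δ * y) + b * (γ * x + δ * y) ^ 2 = -(x ^ 2 + a * x * y + b * y ^ 2) := by
    revert a b
    unfold An2
    decide +kernel
  have h1 : ∀ z, (two h).Q (Matrix.toLin' !![α, β; γ, δ] z) = -(two h).Q z := fun z => by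
    simpa [two, q2_apply, Matrix.vecHead, Matrix.vecTail] using e (z 0) (z 1)
  let θ : (Fin 2 → ZMod 3) ≃ₗ[ZMod 3] _ := LinearEquiv.ofInjectiveEndo (Matrix.toLin' !![α, β; γ, δ])
    ((injective_iff_map_eq_zero _).2 fun z hz => two_an h z (by
      rw [← neg_eq_zero, ← h1, hz, map_zero]))
  have h2 : ∀ v, ((two h).ext 2).Q (((LinearEquiv.neg _).prodCongr
      (θ.prodCongr (LinearEquiv.refl _ _))) v) = -((two h).ext 2).Q v := fun v => by
    have h3 : (two h).Q (θ v.2.1) = -(two h).Q v.2.1 := h1 _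
    simp [h3]
    ring
  refine ⟨_, fun u v => ?_, h2⟩
  simp only [((two h).ext 2).hO rfl, QuadraticMap.polarBilin_apply_apply, QuadraticMap.polar,
    ← map_add, h2]
  ring

/-- The sign of `GL₁(3)`. -/
def sg : GL (Fin 1) (ZMod 3) →* ℂˣ :=
  (Units.map (Int.castRingHom ℂ : ℤ →* ℂ)).comp (MonoidHom.comp
    { toFun := fun a : (ZMod 3)ˣ => if a = 1 then (1 : ℤˣ) else -1
      map_one' := by decide
      map_mul' := by decide } GeneralLinearGroup.det)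

theorem sg_neg (a : GL (Fin 1) (ZMod 3)) : (sg (-a) : ℂ) = -sg a := by
  have : sg (-1) = -1 := by
    have : GeneralLinearGroup.det (-1 : GL (Fin 1) (ZMod 3)) = -1 := Units.ext (by simp)
    simp [sg, this, show (-1 : (ZMod 3)ˣ) ≠ 1 by decide]
  rw [← neg_one_mul, map_mul, this, neg_one_mul, Units.val_neg]

theorem jobE7 (hol : AHol) (sc : JobSC) (ps : APS) (idx : AIdx) (iso : AIso) : JobE7 := by
  intro a b h
  obtain ⟨⟨d, ⟨τ, hτ, τ1, hle⟩, -, hd⟩, -⟩ := ps _ _ (two h) (two_an h) 2 le_rfl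
  have hi := idx _ _ (two h) (two_an h) 2 1
  rw [two_a, ZMod.card] at hd hi
  obtain rfl : d = 90 := by omega
  replace hi : (((two h).ext 2).P 1).index = 1066 := by
    simp [sv] at hi
    omega
  have hσ := isIrrCharacter_of_hom sg
  obtain ⟨θ, hB, hQ⟩ := exists_sim_two h
  have : IsSimpleModule (ZMod 3) (Fin 1 → ZMod 3) := isSimpleModule_iff_finrank_eq_one.2 (by simp)
  have ε1 : ((two h).ext 2).ε = 1 := rfl
  obtain ⟨χ₁, χ₂, a₁, a₂, i₁, -, e1, e2, e3, e4, hex, -⟩ := hol _ _ ((two h).ext 2) 1 1 _ τ hσ hτ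
    ⟨fun T h1 h2 => absurd h2 (not_not.2 ((eq_bot_or_eq_top T).resolve_left h1)), by
      rw [finsum_eq_sum_of_fintype, ← CharZero.neg_eq_self_iff, ← sum_neg_distrib]
      exact Fintype.sum_equiv (Equiv.neg _) _ _ fun a => (sg_neg a).symm⟩
    (Or.inl hle) one_ne_zero (fun a => by
      rw [← xm_apply (fun a => (sg a : ℂ)) 1]
      congr 1
      ext i j
      have h1 : ∀ x : ZMod 3, x ≠ 0 → x * x = 1 := by decide
      have h2 := (GeneralLinearGroup.det a⁻¹).ne_zero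
      rw [GeneralLinearGroup.val_det_apply, det_fin_one] at h2
      rw [Subsingleton.elim i 0, Subsingleton.elim j 0]
      simpa [Matrix.mul_apply, -coe_units_inv] using h1 _ h2)
    (by rw [← xm_apply (fun a => (sg a : ℂ)) 1, ε1]; simp)
  simp only [ε1, inv_one, Units.val_one, transpose_one, mul_one, one_smul] at e4
  have e5 := sum_zero sc _ (σ := fun a => (sg a : ℂ)) sg_neg θ hB hQ hτ hle hex
  rw [map_one, Units.val_one, one_mul, τ1] at e1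
  have e6 : a₂ = -a₁ := by
    rw [τ1] at e4
    have := e4.trans (by convert e5)
    norm_num at this
    linear_combination this
  have e7 : a₁ ≠ 0 := fun e => by
    rw [e, zero_mul, zero_eq_neg, Nat.cast_eq_zero] at e3
    have : Nonempty {d : (Fin 1 → _) × Matrix (Fin 1) (Fin 1) (ZMod 3) //
      ((two h).ext 2).Adm 1 d.1 d.2} := ⟨⟨0, by simp [FS.Adm]⟩⟩
    exact Nat.card_pos.ne' e3
  refine ⟨47970, (((iso _ _ (((two h).ext 2).ext 1)).2.2 _ _ ((iso _ _ (two h)).1 2 1)).2.2 _).2.1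
    ⟨χ₁, i₁, mul_right_cancel₀ e7 ?_⟩, by norm_num⟩
  rw [hi] at e1
  rw [e6] at e2
  push_cast at e1 ⊢
  linear_combination (1 / 2 : ℂ) * e2 + a₁ / 2 * e1

end H7.DGE7
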