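/- E7MAX (S5934): job P1. -/
import Cfsg.Agent.H36.E7MSpec

set_option autoImplicit false

namespace H7.E7P1
open Cfsg.Lie Module H36.E7M
open scoped commutatorElement

theorem t_sym : ∀ r : Fin 126, chevE7.pairing r ((125 : Fin 126) : ℕ) = lev r := by decide +kernel
theorem t_y : ∀ r : Fin 126, 93 ≤ (r : ℕ) → (r : ℕ) ≤ 124 →
    chevE7.pairing r ((0 : Fin 126) : ℕ) = -1 := by decide +kernel
theorem t_spe : ∀ r : Fin 126, ∀ s : Fin 126, 1 ≤ (r : ℕ) → (r : ℕ) ≤ 32 → (s : ℕ) = r + 92 →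
    chevE7.pairing r s = 1 := by decide +kernel
theorem t_th : ∀ r < 33, 1 ≤ r → Sm 125 r (r + 92) := by decide +kernel
theorem t_opp : ∀ r < 125, 93 ≤ r → Sm (217 - r) r 125 := by decide +kernel
theorem t_no : ∀ r < 33, 1 ≤ r → ∀ t < 126, ¬ Sm r 0 t := by decide +kernel
theorem t_pol : ∀ r < 93, 33 ≤ r → ∃ s < 125, 93 ≤ s ∧ ∃ t < 126, Sm r s t := by decide +kernel

theorem inv_of_sq {a : G} (h : a * a = 1) : a⁻¹ = a := inv_eq_of_mul_eq_one_right h

theorem cj_of_comm {a b c : G} (h : ⁅a, b⁆ = c) : cj a b = c * b := by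
  rw [← h, commutatorElement_def, cj]; group

theorem comm_one {a b : G} (h : Commute a b) : ⁅a, b⁆ = 1 := by
  rw [commutatorElement_def, h.eq]; group

theorem jobP1 : JobP1 := by
  intro hSQ hCM hLQ hCZ hR5 hW hFIL hCOL hGEN
  obtain ⟨sq, xinj, xne, s3⟩ := hSQ
  obtain ⟨lq, lc, qz, -⟩ := hLQ
  have zz : z * z = 1 := sq 125
  have yy : y * y = 1 := sq 0
  have z_ne : z ≠ 1 := xne 125 (by omega)
  have xD : ∀ r < 126, x r ∈ D := fun r hr => by
    obtain ⟨g, h, -⟩ := (hW ⟨r, hr⟩).1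
    exact ⟨g, h⟩
  have czQ : ∀ g, Commute g z → ∀ q ∈ Q, cj g q ∈ Q := by
    intro g hg q hq
    obtain ⟨l, hl, q', hq', rfl⟩ := hCZ g hg
    rw [← cj_cj]
    exact lq l hl _ (cj_mem hq' hq)
  have lev1 : ∀ r, 93 ≤ r → r ≤ 124 → lev r = 1 := fun r h1 h2 => by
    have := lev_cases r; omega
  have rx1 : ∀ r, 93 ≤ r → r ≤ 124 → Rel 1 z (x r) := fun r h1 h2 => by
    have := rel_x (r := r) (by omega)
    rwa [lev1 r h1 h2] at this
  -- `x r * z` is collinear with `z`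
  have rxz1 : ∀ r, 93 ≤ r → r ≤ 124 → Rel 1 z (x r * z) := fun r h1 h2 => by
    have hc := (hCM (217 - r) (by omega) r (by omega)).1 125 (by omega) (t_opp r (by omega) h1)
    have h3 : cj (x (217 - r)) (x r) = x r * z := by
      rw [cj_of_comm hc]
      exact (qz _ (x_mem_Q h1 (by omega))).eq.symm
    have h4 : cj (x (217 - r)) z = z :=
      cj_eq_iff.2 (qz _ (x_mem_Q (by omega) (by omega)))
    have := (rx1 r h1 h2).cj (x (217 - r))
    rwa [h3, h4] at this
  -- `x r` is special to `y`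
  have rxy : ∀ r, 93 ≤ r → r ≤ 124 → Rel (-1) (x r) y := fun r h1 h2 => by
    have := (hW ⟨r, by omega⟩).2 0
    rwa [t_y ⟨r, by omega⟩ h1 h2] at this
  -- `x r * z` is opposite to `y`
  have rxzy : ∀ r, 93 ≤ r → r ≤ 124 → Rel (-2) (x r * z) y := fun r h1 h2 => by
    obtain ⟨s, rfl⟩ : ∃ s, r = s + 92 := ⟨r - 92, by omega⟩
    have hc := (hCM 125 (by omega) s (by omega)).1 (s + 92) (by omega) (t_th s (by omega) (by omega))
    have hy : Commute (x s) y :=
      (hCM s (by omega) 0 (by omega)).2 (by omega) (t_no s (by omega) (by omega))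
    have h3 : cj (x s) z = x (s + 92) * z := by
      have h5 : ⁅x s, z⁆ = x (s + 92) := by
        rw [← commutatorElement_inv]
        change (⁅x 125, x s⁆)⁻¹ = _
        rw [hc, inv_of_sq (sq _)]
      exact cj_of_comm h5
    have h0 : Rel (-2) z y := rel_opp.2 ⟨1, (cj_one _).symm, (cj_one _).symm⟩
    have := h0.cj (x s)
    rwa [h3, cj_eq_iff.2 hy] at this
  have col : ∀ a, Rel 1 z a ↔ a ∈ D ∧ a ∈ Q ∧ a ≠ z := by
    intro a
    constructor
    · rintro ⟨g, r, h1, h2, h3, rfl⟩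
      have hr : 93 ≤ r ∧ r ≤ 124 := by have := lev_cases r; omega
      refine ⟨D_cj g (xD r h1), czQ g (cj_eq_iff.1 h3.symm) _ (x_mem_Q hr.1 h1), fun h => ?_⟩
      have h4 : cj g (x r) = cj g z := h.trans h3
      have := xinj r h1 125 (by omega) (cj_inj h4)
      omega
    · rintro ⟨h1, h2, h3⟩
      obtain ⟨l, hl, r, hr1, hr2, h | h⟩ := hCOL a h1 h2 h3
      · have := (rx1 r hr1 hr2).cj l
        rwa [cj_eq_iff.2 (lc l hl).1, ← h] at this
      · have := (rxz1 r hr1 hr2).cj l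
        rwa [cj_eq_iff.2 (lc l hl).1, ← h] at this
  refine ⟨zz, yy, z_ne, ?_, s3, ?_, qz, czQ, ?_, ?_, ?_, col, ?_, ?_, ?_, hGEN, ?_⟩
  · intro h
    have h1 : z * y * z = y := by rw [h.eq, mul_assoc, zz, mul_one]
    have h2 : y * z * y = z := by rw [← h.eq, mul_assoc, yy, mul_one]
    have h3 : x 0 = x 125 := (h1.symm.trans s3).trans h2
    have := xinj 0 (by omega) 125 (by omega) h3
    omega
  · rintro ⟨g, h⟩
    apply z_ne
    have h1 : cj g 1 = cj g z := by rw [← h]; simp [cj]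
    exact (cj_inj h1).symm
  · intro g hg
    obtain ⟨l, hl, q, hq, rfl⟩ := hCZ g hg
    have h0 : Fil 2 (eb 125) := by
      refine ⟨fun r hr => ?_, fun _ i => ?_⟩
      · have : ix r ≠ ix 125 := by
          intro h
          have h1 : r = 125 := Sum.inr_injective h
          subst h1
          revert hr; decide
        exact Pi.single_eq_of_ne this _
      · have : ih i ≠ ix 125 := Sum.inl_ne_inr
        exact Pi.single_eq_of_ne this _
    have h1 := hFIL.1 q hq 2 _ h0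
    have h2 : ρ q (eb 125) - eb 125 = 0 := by
      funext j
      rcases j with i | r
      · exact h1.2 (by omega) i
      · refine h1.1 r ?_
        have := lev_cases r; omega
    have h3 : ρ q (eb 125) = eb 125 := sub_eq_zero.1 h2
    rw [map_mul, Module.End.mul_apply, h3]
    exact (hFIL.2.2.1 l hl).2.1
  · rintro a ⟨g, rfl⟩ b ⟨h, rfl⟩
    obtain ⟨u, r, h1, h2, h3⟩ := hR5 (g⁻¹ * h)
    refine ⟨lev r, g * u, r, h1, rfl, ?_, ?_⟩
    · rw [← cj_cj, cj_eq_iff.2 h2]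
    · rw [← cj_cj, ← h3, cj_cj, mul_inv_cancel_left]
  · rintro k a b ⟨g, r, h1, h2, rfl, rfl⟩
    have := (hW ⟨r, h1⟩).2 125
    rw [t_sym ⟨r, h1⟩] at this
    subst h2
    exact this.cj g
  · rintro a b ⟨g, r, h1, h2, rfl, rfl⟩
    have hr : 33 ≤ r ∧ r ≤ 92 := by have := lev_cases r; omega
    exact commute_cj.2 (lc _ (x_mem_L hr.1 hr.2)).1.symm
  · rintro b ⟨g, r, h1, h2, h3, rfl⟩
    have hr : 33 ≤ r ∧ r ≤ 92 := by have := lev_cases r; omega
    obtain ⟨s, hs1, hs2, t, ht, hS⟩ := t_pol r (by omega) hr.1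
    refine ⟨cj g (x s), ?_, fun h => ?_⟩
    · have := (rx1 s hs2 (by omega)).cj g
      rwa [← h3] at this
    · have h4 := (hCM r h1 s (by omega)).1 t ht hS
      have h5 : Commute (x r) (x s) := commute_cj.1 h
      exact xne t ht (h4.symm.trans (comm_one h5))
  · rintro a b ⟨g, r, h1, h2, rfl, rfl⟩
    have hr : 1 ≤ r ∧ r ≤ 32 := by have := lev_cases r; omega
    have hc : ⁅z, x r⁆ = x (r + 92) :=
      (hCM 125 (by omega) r h1).1 (r + 92) (by omega) (t_th r (by omega) hr.1)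
    rw [← cj_comm, hc]
    refine ⟨(rx1 _ (by omega) (by omega)).cj g, ?_⟩
    have := (hW ⟨r, h1⟩).2 ⟨r + 92, by omega⟩
    rw [t_spe ⟨r, h1⟩ ⟨r + 92, by omega⟩ hr.1 hr.2 rfl] at this
    exact this.cj g
  · intro a ha
    obtain ⟨h1, h2, h3⟩ := (col a).1 ha
    obtain ⟨l, hl, r, hr1, hr2, h | h⟩ := hCOL a h1 h2 h3
    · have hz := cj_eq_iff.2 (lc l hl).1
      have hy := cj_eq_iff.2 (lc l hl).2
      have e : a * z = cj l (x r * z) := by rw [cj_mul, hz, h]
      refine ⟨?_, Or.inl ⟨?_, ?_⟩⟩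
      · have := (rxz1 r hr1 hr2).cj l
        rwa [hz, ← e] at this
      · have := (rxy r hr1 hr2).cj l
        rwa [hy, ← h] at this
      · have := (rxzy r hr1 hr2).cj l
        rwa [hy, ← e] at this
    · have hz := cj_eq_iff.2 (lc l hl).1
      have hy := cj_eq_iff.2 (lc l hl).2
      have e : a * z = cj l (x r) := by rw [h, cj_mul, hz, mul_assoc, zz, mul_one]
      refine ⟨?_, Or.inr ⟨?_, ?_⟩⟩
      · have := (rx1 r hr1 hr2).cj l
        rwa [hz, ← e] at this
      · have := (rxzy r hr1 hr2).cj l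
        rwa [hy, ← h] at this
      · have := (rxy r hr1 hr2).cj l
        rwa [hy, ← e] at this

end H7.E7P1
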