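import Cfsg.Agent.H11.FBSpec

/-! FB-B2a (tower FB, S3404): `θ = 6`, `r = 3`, `9 ∣ |H|`: weak closure of `⟨h⟩`. -/

set_option autoImplicit false

namespace H7.FbB2a

open MulAction Subgroup H11.FB

universe u v

/-- a `3`-subgroup `R` of `C` has a `C`-conjugate lying with a given `3`-element of `C` in one
`3`-subgroup of `C` -/
theorem exists_common {G : Type u} [Group G] [Finite G] {C R : Subgroup G} (hR : R ≤ C)
    (hp : IsPGroup 3 R) {y : G} (hy : y ∈ C) (h3 : orderOf y = 3) :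
    ∃ c ∈ C, ∃ T : Subgroup G, T ≤ C ∧ IsPGroup 3 T ∧ y ∈ T ∧ ∀ r ∈ R, c * r * c⁻¹ ∈ T := by
  haveI : Fact (Nat.Prime 3) := ⟨Nat.prime_three⟩
  have h1 : IsPGroup 3 (R.subgroupOf C) := hp.of_equiv (subgroupOfEquivOfLe hR).symm
  have h2 : IsPGroup 3 (zpowers (⟨y, hy⟩ : C)) := by
    refine IsPGroup.of_card (n := 1) ?_
    rw [Nat.card_zpowers, ← orderOf_coe, pow_one]
    exact h3
  obtain ⟨T, hT⟩ := h1.exists_le_sylow
  obtain ⟨T', hT'⟩ := h2.exists_le_sylow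
  obtain ⟨c, hc⟩ := exists_smul_eq C T T'
  refine ⟨c, c.2, (T' : Subgroup C).map C.subtype, map_subtype_le _, T'.isPGroup'.map _,
    ⟨⟨y, hy⟩, hT' (mem_zpowers _), rfl⟩, fun r hr => ?_⟩
  have m : (⟨r, hR hr⟩ : C) ∈ (T : Subgroup C) := hT (mem_subgroupOf.2 hr)
  refine ⟨c * ⟨r, hR hr⟩ * c⁻¹, ?_, rfl⟩
  rw [← hc]
  show _ ∈ ((c • T : Sylow 3 C) : Subgroup C)
  rw [Sylow.coe_subgroup_smul]
  exact Subgroup.smul_mem_pointwise_smul _ (MulAut.conj c) _ m

theorem jobB2a : JobB2a.{u, v} := by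
  intro B0 G Ω _ _ _ _ _ _ a b c d K H P h cx hh o3 t6 g hg hc h9
  haveI : Fact (Nat.Prime 3) := ⟨Nat.prime_three⟩
  have pr : (orderOf h).Prime := o3 ▸ Nat.prime_three
  have th := cx.th1 h hh pr
  have HL : H ≤ L4 G a b c d := cx.hy.fr.Hle
  obtain ⟨ab, ac, ad, bc, bd, cd⟩ := cx.hy.ne
  have LX : ∀ x ∈ L4 G a b c d, x ∈ X3 G a b c := fun x hx => hx.1
  -- `h` is central in `H`
  have cen : ∀ x ∈ H, x * h = h * x := by
    refine cx.fh.cen h hh ?_
    rw [o3]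
    have d3 : 3 ∣ Nat.card H := o3 ▸ orderOf_dvd_natCard H hh
    have le : (Nat.card H).minFac ≤ 3 := Nat.minFac_le_of_dvd (by norm_num) d3
    have ne1 : Nat.card H ≠ 1 := by
      intro e
      rw [e] at d3
      norm_num at d3
    have pm := Nat.minFac_prime ne1
    have ne2 : (Nat.card H).minFac ≠ 2 := by
      intro e
      have := Nat.minFac_dvd (Nat.card H)
      rw [e] at this
      exact (Nat.not_even_iff_odd.2 cx.odd) (even_iff_two_dvd.2 this)
    have := pm.two_le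
    omega
  set y := g * h * g⁻¹ with hy
  have oy : orderOf y = 3 := by
    rw [show y = MulAut.conj g h from rfl, MulEquiv.orderOf_eq, o3]
  set C : Subgroup G := X3 G a b c ⊓ centralizer {h} with hC
  have mC : ∀ x, x ∈ C ↔ x ∈ X3 G a b c ∧ x * h = h * x := fun x => by
    rw [hC, mem_inf, mem_centralizer_singleton_iff]
  have yX : y ∈ X3 G a b c := mul_mem (mul_mem hg (LX _ (HL hh))) (inv_mem hg)
  have yC : y ∈ C := (mC y).2 ⟨yX, hc⟩
  obtain ⟨R₁, hR₁⟩ := Sylow.exists_subgroup_card_pow_prime (G := H) 3 (n := 2) h9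
  set R : Subgroup G := R₁.map H.subtype with hR
  have cR : Nat.card R = 3 ^ 2 := by rw [hR, card_map_of_injective H.subtype_injective, hR₁]
  have RH : R ≤ H := map_subtype_le _
  have RC : R ≤ C := fun x hx => (mC x).2 ⟨LX _ (HL (RH hx)), cen x (RH hx)⟩
  have pR : IsPGroup 3 R := IsPGroup.of_card cR
  obtain ⟨k, kC, T, TC, pT, yT, hT⟩ := exists_common RC pR yC oy
  have ab' := B0 cx hh o3 t6 (fun x hx => ((mC x).1 (TC hx)).1) pT
    (fun x hx => ((mC x).1 (TC hx)).2)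
  -- the three points
  obtain ⟨ga, gb, gc⟩ := mem_X3.1 hg
  obtain ⟨ha, hb, hc', hd⟩ := mem_L4.1 (HL hh)
  set S : Set Ω := fixedBy Ω h \ {a, b, c} with hS
  have cS : S.ncard = 3 := by
    have sub : ({a, b, c} : Set Ω) ⊆ fixedBy Ω h := by
      rintro x (rfl | rfl | rfl) <;> assumption
    rw [hS, Set.ncard_diff sub, t6, Set.ncard_eq_three.2 ⟨a, b, c, ab, ac, bc, rfl⟩]
  have key : ∀ r ∈ R, (g⁻¹ * (k * r * k⁻¹) * g) • d ∈ S := by
    intro r hr
    have m := hT r hr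
    have cm := ab' _ m _ yT
    have mX : g⁻¹ * (k * r * k⁻¹) * g ∈ X3 G a b c :=
      mul_mem (mul_mem (inv_mem hg) ((mC _).1 (TC m)).1) hg
    obtain ⟨e1, e2, e3⟩ := mem_X3.1 mX
    have i := MulAction.injective (β := Ω) (g⁻¹ * (k * r * k⁻¹) * g)
    refine ⟨?_, ?_⟩
    · show h • _ = _
      have : h * (g⁻¹ * (k * r * k⁻¹) * g) = g⁻¹ * (k * r * k⁻¹) * g * h := by
        calc h * (g⁻¹ * (k * r * k⁻¹) * g) = g⁻¹ * (y * (k * r * k⁻¹)) * g := by rw [hy]; group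
          _ = g⁻¹ * ((k * r * k⁻¹) * y) * g := by rw [cm]
          _ = _ := by rw [hy]; group
      rw [← mul_smul, this, mul_smul, hd]
    · rintro (e | e | e)
      · exact ad (i (e1.trans e.symm))
      · exact bd (i (e2.trans e.symm))
      · exact cd (i (e3.trans e.symm))
  let F : R → S := fun r => ⟨_, key r r.2⟩
  have nI : ¬ Function.Injective F := fun hF => by
    have := Nat.card_le_card_of_injective F hF
    rw [cR, Nat.card_coe_set_eq, cS] at this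
    norm_num at this
  obtain ⟨r₁, r₂, e, ne⟩ := Function.not_injective_iff.1 nI
  have e' : (g⁻¹ * (k * r₁ * k⁻¹) * g) • d = (g⁻¹ * (k * r₂ * k⁻¹) * g) • d :=
    congrArg Subtype.val e
  set x : R := r₂⁻¹ * r₁ with hx
  have x1 : x ≠ 1 := fun e => ne (inv_mul_eq_one.1 e).symm
  have fx : (g⁻¹ * (k * x * k⁻¹) * g) • d = d := by
    have : g⁻¹ * (k * x * k⁻¹) * g =
        (g⁻¹ * (k * r₂ * k⁻¹) * g)⁻¹ * (g⁻¹ * (k * r₁ * k⁻¹) * g) := by
      rw [hx, coe_mul, coe_inv]; group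
    rw [this, mul_smul, e', inv_smul_smul]
  -- `h` is a power of `x`
  have d3 : 3 ∣ orderOf (x : G) := by
    rw [orderOf_coe]
    obtain ⟨n, hn⟩ := IsPGroup.iff_orderOf.1 pR x
    rw [hn]
    refine dvd_pow_self 3 ?_
    rintro rfl
    exact x1 (orderOf_eq_one_iff.1 (by simpa using hn))
  have oz : orderOf ((x : G) ^ (orderOf (x : G) / 3)) = 3 :=
    orderOf_pow_orderOf_div (orderOf_pos _).ne' d3
  have hz : h ∈ zpowers (x : G) := by
    have := cx.fh.uniq _ (pow_mem (RH x.2) (orderOf (x : G) / 3)) h hh (by rw [oz]; exact Nat.prime_three)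
      (o3.trans oz.symm)
    exact (zpowers_le.2 (pow_mem (mem_zpowers _) _)) this
  obtain ⟨m, hm⟩ := mem_zpowers_iff.1 hz
  have kh : k * h * k⁻¹ = h := by rw [((mC k).1 kC).2]; group
  have fh : (g⁻¹ * h * g) • d = d := by
    have : g⁻¹ * h * g = (g⁻¹ * (k * x * k⁻¹) * g) ^ m := by
      rw [show g⁻¹ * (k * x * k⁻¹) * g = (g⁻¹ * k) * x * (g⁻¹ * k)⁻¹ by group, conj_zpow, hm]
      calc g⁻¹ * h * g = g⁻¹ * (k * h * k⁻¹) * g := by rw [kh]
        _ = _ := by group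
    rw [this]
    exact zpow_mem (mem_stabilizer_iff.2 fx) m
  have wL : g⁻¹ * h * g ∈ L4 G a b c d :=
    mem_inf.2 ⟨mul_mem (mul_mem (inv_mem hg) (LX _ (HL hh))) hg, fh⟩
  have wc : (g⁻¹ * h * g) * h = h * (g⁻¹ * h * g) := by
    calc (g⁻¹ * h * g) * h = g⁻¹ * (h * y) * g := by rw [hy]; group
      _ = g⁻¹ * (y * h) * g := by rw [hc]
      _ = _ := by rw [hy]; group
  have nz : ∀ w : G, w * h * w⁻¹ ∈ zpowers h → w ∈ normalizer (zpowers h : Set G) := by
    intro w hw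
    refine mem_normalizer_fintype ?_
    intro n hn
    obtain ⟨j, rfl⟩ := mem_zpowers_iff.1 hn
    rw [← conj_zpow]
    exact zpow_mem hw j
  have wH : g⁻¹ * h * g ∈ H := (th.nl _ wL).1 (nz _ (by
    rw [wc, mul_inv_cancel_right]
    exact mem_zpowers h))
  have wz : g⁻¹ * h * g⁻¹⁻¹ ∈ zpowers h := by
    rw [inv_inv]
    refine cx.fh.uniq h hh _ wH pr ?_
    rw [show g⁻¹ * h * g = MulAut.conj g⁻¹ h by simp, MulEquiv.orderOf_eq]
  have gN : g ∈ normalizer (zpowers h : Set G) := inv_mem_iff.1 (nz _ wz)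
  exact (mem_normalizer_iff.1 gN h).1 (mem_zpowers h)

end H7.FbB2a
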