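/- KP tower (S4202), slots GEOC and DEG. -/
import Cfsg.Agent.H2.KpSpec
import Cfsg.Agent.H2.LnPrim
import Cfsg.Agent.H30.LnTop
import Cfsg.Agent.H5.LnJor
import Cfsg.Agent.H9.LnDg2
import Cfsg.Agent.H41.LnB
import Cfsg.Agent.H33.LnCnt
import Cfsg.Agent.H73.PsUni

set_option autoImplicit false

namespace H7.KpGeoC
open Equiv MulAction H2.Ln

theorem jobGeoC : H2.Kp.GeoC := by
  intro α _ _ M Ω L h x hx h1
  obtain ⟨z, hz⟩ : x.support.Nonempty :=
    Finset.card_pos.1 (Nat.pos_of_ne_zero fun e => h1 (Perm.card_support_eq_zero.1 e))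
  have sub : x.support ⊆ Ω := fun a ha => by
    by_contra c
    exact Perm.mem_support.1 ha (h.inv x hx a c)
  have zΩ := sub hz
  have hF : ∀ u ∈ Ω \ x.support, u ∈ Ω ∧ x u = u ∧ z ≠ u := fun u hu => by
    obtain ⟨a, b⟩ := Finset.mem_sdiff.1 hu
    exact ⟨a, Perm.notMem_support.1 b, fun e => b (e ▸ hz)⟩
  have dis : ∀ u ∈ Ω \ x.support, ∀ v ∈ Ω \ x.support, u ≠ v →
      Disjoint ((L z u).erase z) ((L z v).erase z) := fun u hu v hv huv => by
    obtain ⟨u1, u2, u3⟩ := hF u hu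
    obtain ⟨v1, v2, v3⟩ := hF v hv
    refine Finset.disjoint_left.2 fun w w1 w2 => ?_
    obtain ⟨wz, w1⟩ := Finset.mem_erase.1 w1
    have w2 := (Finset.mem_erase.1 w2).2
    obtain ⟨a1, a2, -, a4⟩ := h.mem z zΩ u u1 u3
    obtain ⟨b1, b2, -, -⟩ := h.mem z zΩ v v1 v3
    have e1 : L z v = L z u :=
      (h.uniq z zΩ v v1 v3 z b1 w w2 wz.symm).symm.trans (h.uniq z zΩ u u1 u3 z a1 w w1 wz.symm)
    rw [e1] at b2
    have e2 : L u v = L z u := h.uniq z zΩ u u1 u3 u a2 v b2 huv
    have e3 : x z ∈ L z u := by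
      have := h.eqv x hx u u1 v v1 huv z (e2 ▸ a1)
      rwa [u2, v2, e2] at this
    have e4 : ({z, u, v} : Finset α) = L z u := by
      refine Finset.eq_of_subset_of_card_le ?_ ?_
      · intro a ha
        simp only [Finset.mem_insert, Finset.mem_singleton] at ha
        rcases ha with rfl | rfl | rfl <;> assumption
      · rw [a4, Finset.card_eq_three.2 ⟨z, u, v, u3, v3, huv, rfl⟩]
    rw [← e4] at e3
    simp only [Finset.mem_insert, Finset.mem_singleton] at e3
    rcases e3 with e | e | e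
    · exact Perm.mem_support.1 hz e
    · exact u3 (x.injective (e.trans u2.symm))
    · exact v3 (x.injective (e.trans v2.symm))
  have c1 : ((Ω \ x.support).biUnion fun u => (L z u).erase z).card = (Ω \ x.support).card * 2 := by
    rw [Finset.card_biUnion fun u hu v hv huv => dis u hu v hv huv]
    refine Finset.sum_const_nat fun u hu => ?_
    obtain ⟨u1, -, u3⟩ := hF u hu
    obtain ⟨a1, -, -, a4⟩ := h.mem z zΩ u u1 u3
    rw [Finset.card_erase_of_mem a1, a4]
  have c2 : ((Ω \ x.support).biUnion fun u => (L z u).erase z) ⊆ Ω.erase z :=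
    Finset.biUnion_subset.2 fun u hu => Finset.erase_subset_erase z
      (h.mem z zΩ u (hF u hu).1 (hF u hu).2.2).2.2.1
  have c3 := Finset.card_le_card c2
  have c4 := Finset.card_le_card sub
  have c5 := Finset.card_pos.2 ⟨z, zΩ⟩
  rw [c1, Finset.card_erase_of_mem zΩ, Finset.card_sdiff_of_subset sub] at c3
  omega

theorem jobDeg : H2.Kp.Deg := by
  intro α _ _ M p hp hd hP hA h3
  classical
  have hn := Nat.card_eq_fintype_card (α := α)
  have hr : ¬ IsMultiplyPretransitive M α (Fintype.card α - 3 + 1) := fun h =>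
    hA (IsMultiplyPretransitive.alternatingGroup_le α M (by
      rwa [hn, show Fintype.card α - 2 = Fintype.card α - 3 + 1 by omega]))
  have ex : ∃ t, ¬ IsMultiplyPretransitive M α (t + 1) := ⟨_, hr⟩
  obtain ⟨t, ht, hmin⟩ : ∃ t, ¬ IsMultiplyPretransitive M α (t + 1) ∧
      ∀ s < t, IsMultiplyPretransitive M α (s + 1) :=
    ⟨Nat.find ex, Nat.find_spec ex, fun s hs => not_not.1 (Nat.find_min ex hs)⟩
  have htr : t ≤ Fintype.card α - 3 := not_lt.1 fun c => hr (hmin _ c)
  have ht1 : 1 ≤ t := Nat.pos_of_ne_zero fun e => by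
    subst e
    exact ht (is_one_pretransitive_iff.2 hP.toIsPretransitive)
  have hT : IsMultiplyPretransitive M α t := by
    obtain ⟨s, rfl⟩ := Nat.exists_eq_add_of_le' ht1
    exact hmin s (Nat.lt_succ_self s)
  have ht' : t ≤ Nat.card α := by omega
  refine ⟨t, ht1, not_lt.1 fun c => hd ?_, by omega, hT, ht, fun m hm x hx h1 => ?_⟩
  · obtain ⟨Δ, -, e⟩ := Finset.exists_subset_card_eq (s := (Finset.univ : Finset α)) (n := 7)
      (by rw [Finset.card_univ]; omega)
    have c1 := (H30.LnTop.jobTop2 α M Δ (e ▸ hmin 6 c)).1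
    rw [c1, e]
    refine Dvd.dvd.mul_right (Dvd.dvd.trans ?_ (Nat.factorial_dvd_descFactorial _ 7)) _
    rcases hp with rfl | rfl | rfl <;> decide
  · obtain ⟨y, hy⟩ := exists_mn hx h1
    refine le_trans (not_lt.1 fun c => hm _ c ?_) (hy.2.2 x hx h1)
    have a := H5.LnJor.jobDg1 α M hP hA y hy.1 hy.2.1
    refine ⟨⟨a.1, fun h => ?_, fun h => ⟨a.2 t h (by omega) hT, ?_⟩, fun h => ?_⟩, fun e h22 => ?_⟩
    · exact H9.Ln.jobDg2 H33.Ln.jobCnt H33.Ln.jobCom α M (isMultiplyPretransitive_of_le h ht') y _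
        hy rfl a.1
    · exact H41.Ln.jobDg3 H33.Ln.jobCnt H33.Ln.jobCom α M (isMultiplyPretransitive_of_le h ht') y _
        hy rfl a.1
    · exact (le_or_gt _ _).imp id (H41.Ln.jobDg4 H33.Ln.jobCnt H33.Ln.jobCom α M
        (isMultiplyPretransitive_of_le h ht') y _ hy rfl a.1)
    · subst e
      obtain ⟨z, hz⟩ : y.support.Nonempty := Finset.card_pos.1 (by omega)
      obtain ⟨D, -, -, d1, d2⟩ := H73.PsUni.jobUni α M h22 hP ht z (y z)
        (Perm.mem_support.1 hz).symm
      have sub : D ⊆ y.support := fun c hc => Perm.mem_support.2 fun e => d2 c hc y hy.1 e rfl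
      exact d1.trans (Nat.mul_le_mul_left 3 (Nat.pow_le_pow_left (Finset.card_le_card sub) 2))

end H7.KpGeoC
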