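import Cfsg.Agent.H36.NGSpec
import Cfsg.Agent.H29.Central

/-! Job `JobEx` of the tower NG: a class-sum eigenspace argument. -/

set_option autoImplicit false
set_option linter.unusedVariables false

namespace H7.NGEx

open Cfsg H87 H39 H36.NG Module Finset

universe u

/-- The ring of algebraic integers. -/
abbrev O : Subalgebra ℤ ℂ := integralClosure ℤ ℂ

section lin

variable {G V : Type*} [Group G] [AddCommGroup V] [Module ℂ V]

/-- The image of the group ring over the algebraic integers. -/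
def A (ρ : Representation ℂ G V) : Subalgebra O (Module.End ℂ V) :=
  Algebra.adjoin O (Set.range ρ)

theorem mem_A (ρ : Representation ℂ G V) (g : G) : ρ g ∈ A ρ :=
  Algebra.subset_adjoin ⟨g, rfl⟩

theorem eig_int [Finite G] (ρ : Representation ℂ G V) {Γ : Module.End ℂ V} (hΓ : Γ ∈ A ρ)
    {v : V} (hv : v ≠ 0) {γ : ℂ} (h : Γ v = γ • v) : IsIntegral ℤ γ := by
  have hfg : (Subalgebra.toSubmodule (A ρ)).FG := by
    rw [A, Algebra.adjoin_eq_span]
    have : ((Submonoid.closure (Set.range ρ) : Submonoid (Module.End ℂ V)) :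
        Set (Module.End ℂ V)) = Set.range ρ := by
      rw [← MonoidHom.coe_mrange, Submonoid.closure_eq]
    rw [this]
    exact Submodule.fg_span (Set.finite_range _)
  obtain ⟨q, hq, hq0⟩ := IsIntegral.of_mem_of_fg _ hfg Γ hΓ
  have hev : Module.End.HasEigenvector Γ γ v := ⟨Module.End.mem_eigenspace_iff.2 h, hv⟩
  have h1 := Module.End.aeval_apply_of_hasEigenvector (p := q.map (algebraMap O ℂ)) hev
  rw [Polynomial.aeval_map_algebraMap, Polynomial.aeval_def, hq0, LinearMap.zero_apply,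
    Polynomial.eval_map] at h1
  exact isIntegral_trans (A := O) γ ⟨q, hq, (smul_eq_zero.1 h1.symm).resolve_right hv⟩

theorem dvd_of_mul {r : ℕ} (hr : r.Prime) {η γ : ℂ} (hη : η ^ r = 1) (hγ : IsIntegral ℤ γ)
    {m : ℤ} (h : (m : ℂ) = (1 - η) * γ) : (r : ℤ) ∣ m := by
  have hηi : IsIntegral ℤ η := IsIntegral.of_pow hr.pos (hη ▸ isIntegral_one)
  obtain ⟨s, hs⟩ := exists_add_pow_prime_eq hr (⟨η, hηi⟩ : O) (1 - ⟨η, hηi⟩)
  have hs' : (1 - η) ^ r = -(r * (η * (1 - η) * (s : ℂ))) := by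
    have := congrArg Subtype.val hs
    push_cast at this
    rw [hη] at this
    simp only [add_sub_cancel, one_pow] at this
    linear_combination -this
  have hr0 : (r : ℂ) ≠ 0 := by exact_mod_cast hr.ne_zero
  have h2 : IsIntegral ℤ ((((m ^ r : ℤ) : ℚ) / r : ℚ) : ℂ) := by
    have : ((((m ^ r : ℤ) : ℚ) / r : ℚ) : ℂ) = -(η * (1 - η) * (s : ℂ)) * γ ^ r := by
      push_cast
      rw [h, mul_pow, hs']
      field_simp
    rw [this]
    exact ((hηi.mul (isIntegral_one.sub hηi)).mul s.2).neg.mul (hγ.pow r)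
  obtain ⟨z, hz⟩ := H29.exists_int_of_isIntegral_rat h2
  have hr1 : (r : ℚ) ≠ 0 := by exact_mod_cast hr.ne_zero
  rw [div_eq_iff hr1] at hz
  have h3 : m ^ r = z * r := by exact_mod_cast hz
  exact (Nat.prime_iff_prime_int.1 hr).dvd_of_dvd_pow ⟨z, by rw [h3, mul_comm]⟩

theorem mul_geom {R : Type*} [Ring R] (E : R) {r : ℕ} (h : E ^ r = 1) :
    E * ∑ i ∈ range r, E ^ i = ∑ i ∈ range r, E ^ i := by
  have h1 := mul_geom_sum E r
  rw [h, sub_self, sub_mul, one_mul, sub_eq_zero] at h1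
  exact h1

/-- The `η`-twisted eigenspace. -/
def W (C D : Module.End ℂ V) (p μ : ℂ) : Submodule ℂ V :=
  LinearMap.ker (C - p • 1) ⊓ LinearMap.ker (μ • D - 1)

theorem mem_W {C D : Module.End ℂ V} {p μ : ℂ} {v : V} :
    v ∈ W C D p μ ↔ C v = p • v ∧ (μ • D) v = v := by
  simp [W, sub_eq_zero]

theorem pow_W {C D : Module.End ℂ V} {p μ : ℂ} {v : V} (h : v ∈ W C D p μ) (i : ℕ) :
    ((μ • D) ^ i) v = v := by
  induction i with
  | zero => simp
  | succ i ih => rw [pow_succ, Module.End.mul_apply, (mem_W.1 h).2, ih]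

theorem sum_mem_W {C D : Module.End ℂ V} {p μ : ℂ} {r : ℕ} (hμ : μ ^ r = 1) (hD : D ^ r = 1)
    (hCC : C * C = p • C) (hCD : Commute C D) (v : V) :
    ((∑ i ∈ range r, (μ • D) ^ i) * C) v ∈ W C D p μ := by
  have h1 : Commute C (∑ i ∈ range r, (μ • D) ^ i) :=
    Commute.sum_right _ _ _ fun i _ => (hCD.smul_right μ).pow_right i
  refine mem_W.2 ⟨?_, ?_⟩
  · rw [← Module.End.mul_apply, ← mul_assoc, h1.eq, mul_assoc, hCC, mul_smul_comm,
      LinearMap.smul_apply]
  · rw [← Module.End.mul_apply, ← mul_assoc, mul_geom _ (by rw [smul_pow, hμ, hD, one_smul])]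

theorem finrank_le [Finite G] [FiniteDimensional ℂ V] (ρ : Representation ℂ G V) {r : ℕ}
    (hr : r.Prime) {d : G} (hd : d ^ r = 1) {C b : Module.End ℂ V} (hC : C ∈ A ρ) (hb : b ∈ A ρ)
    {p : ℕ} (hCC : C * C = (p : ℂ) • C) (hCD : Commute C (ρ d)) {m : ℤ}
    (hm : ¬ (r : ℤ) ∣ p * m)
    (hT : C * ∑ i ∈ range r, ρ (d ^ i) * b * ρ (d ^ i)⁻¹ = (m : ℂ) • C) {η : ℂ} (hη : η ^ r = 1)
    (j k : ℕ) : finrank ℂ (W C (ρ d) p (η ^ j)) ≤ finrank ℂ (W C (ρ d) p (η ^ k)) := by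
  have hηi : IsIntegral ℤ η := IsIntegral.of_pow hr.pos (hη ▸ isIntegral_one)
  have hD : ρ d ^ r = 1 := by rw [← map_pow, hd, map_one]
  have hpow : ∀ j : ℕ, (η ^ j) ^ r = 1 := fun j => by rw [← pow_mul, mul_comm, pow_mul, hη, one_pow]
  let y : ℕ → Module.End ℂ V := fun k => (∑ i ∈ range r, (η ^ k • ρ d) ^ i) * C * b
  have hy : ∀ v, y k v ∈ W C (ρ d) p (η ^ k) := fun v => sum_mem_W (hpow k) hD hCC hCD (b v)
  let f : W C (ρ d) p (η ^ j) →ₗ[ℂ] W C (ρ d) p (η ^ k) :=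
    LinearMap.codRestrict _ ((y k).comp (Submodule.subtype _)) fun v => hy v
  refine LinearMap.finrank_le_finrank_of_injective (f := f) ?_
  rw [injective_iff_map_eq_zero]
  rintro ⟨v, hv⟩ h0
  have h0 : y k v = 0 := congrArg Subtype.val h0
  by_contra hne
  have hne : v ≠ 0 := fun h => hne (Subtype.ext h)
  have h1 : y j v = ((p * m : ℤ) : ℂ) • v := by
    have h2 := LinearMap.congr_fun hT v
    rw [LinearMap.smul_apply, (mem_W.1 hv).1, smul_smul, mul_sum] at h2
    push_cast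
    rw [mul_comm (p : ℂ), ← h2]
    simp only [y, sum_mul, LinearMap.sum_apply]
    refine sum_congr rfl fun i _ => ?_
    have h3 : ρ (d ^ i)⁻¹ v = (η ^ j) ^ i • v := by
      conv_lhs => rw [← pow_W hv i]
      rw [smul_pow, ← map_pow, LinearMap.smul_apply, map_smul, ← Module.End.mul_apply, ← map_mul,
        inv_mul_cancel, map_one, Module.End.one_apply]
    rw [← mul_assoc, ← mul_assoc, map_pow, (hCD.pow_right i).eq, Module.End.mul_apply _ (ρ _), h3,
      map_smul, smul_pow, smul_mul_assoc, smul_mul_assoc, LinearMap.smul_apply]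
  let u : ℕ → O := fun i => ∑ l ∈ range (k * i), ⟨η, hηi⟩ ^ l - ∑ l ∈ range (j * i), ⟨η, hηi⟩ ^ l
  have hu : ∀ i, (η ^ j) ^ i - (η ^ k) ^ i = (1 - η) * u i := fun i => by
    simp only [u]
    push_cast
    rw [mul_sub, mul_neg_geom_sum, mul_neg_geom_sum, pow_mul, pow_mul]
    ring
  let Γ : Module.End ℂ V := ∑ i ∈ range r, u i • (ρ d ^ i * C * b)
  have hΓ : Γ ∈ A ρ := sum_mem fun i _ =>
    Subalgebra.smul_mem _ (mul_mem (mul_mem (pow_mem (mem_A ρ d) i) hC) hb) _
  have h4 : y j - y k = (1 - η) • Γ := by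
    simp only [y, Γ, sum_mul, smul_sum, ← sum_sub_distrib]
    refine sum_congr rfl fun i _ => ?_
    rw [smul_pow, smul_pow, smul_mul_assoc, smul_mul_assoc, smul_mul_assoc, smul_mul_assoc,
      ← sub_smul, hu, mul_smul]
    rfl
  have h5 := LinearMap.congr_fun h4 v
  rw [LinearMap.sub_apply, h0, h1, sub_zero, LinearMap.smul_apply] at h5
  by_cases h6 : 1 - η = 0
  · rw [h6, zero_smul, smul_eq_zero_iff_left hne] at h5
    refine hm ?_
    have : (p : ℤ) * m = 0 := by exact_mod_cast h5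
    rw [this]
    exact dvd_zero _
  · have h7 : Γ v = (((p * m : ℤ) : ℂ) / (1 - η)) • v := by
      rw [div_eq_inv_mul, mul_smul, h5, inv_smul_smul₀ h6]
    exact hm (dvd_of_mul hr hη (eig_int ρ hΓ hne h7) (by field_simp))

theorem trace_zero [Finite G] [FiniteDimensional ℂ V] (ρ : Representation ℂ G V) {r : ℕ}
    (hr : r.Prime) {d : G} (hd : d ^ r = 1) {C b : Module.End ℂ V} (hC : C ∈ A ρ) (hb : b ∈ A ρ)
    {p : ℕ} (hCC : C * C = (p : ℂ) • C) (hCD : Commute C (ρ d)) {m : ℤ}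
    (hm : ¬ (r : ℤ) ∣ p * m)
    (hT : C * ∑ i ∈ range r, ρ (d ^ i) * b * ρ (d ^ i)⁻¹ = (m : ℂ) • C) (a : ℕ) (ha : ¬ r ∣ a) :
    LinearMap.trace ℂ V (ρ (d ^ a) * C) = 0 := by
  have hη := Complex.isPrimitiveRoot_exp r hr.ne_zero
  set η := Complex.exp (2 * Real.pi * Complex.I / r)
  have hη1 := hη.pow_eq_one
  have hη0 : η ≠ 0 := hη.ne_zero hr.ne_zero
  have hr0 : (r : ℂ) ≠ 0 := by exact_mod_cast hr.ne_zero
  have hp0 : (p : ℂ) ≠ 0 := by
    have : p ≠ 0 := fun h => hm (by simp [h])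
    exact_mod_cast this
  have hD : ρ d ^ r = 1 := by rw [← map_pow, hd, map_one]
  have hpow : ∀ j : ℕ, (η ^ j) ^ r = 1 := fun j => by rw [← pow_mul, mul_comm, pow_mul, hη1, one_pow]
  have hgeom : ∀ i, ¬ r ∣ i → ∀ z : ℂ, (z = η ^ i ∨ z = (η ^ i)⁻¹) → ∑ j ∈ range r, z ^ j = 0 := by
    intro i hi z hz
    have h1 : η ^ i ≠ 1 := fun h => hi ((hη.pow_eq_one_iff_dvd i).1 h)
    have h2 : z ≠ 1 := by
      rcases hz with rfl | rfl
      · exact h1
      · exact fun h => h1 (inv_eq_one.1 h)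
    have h3 : z ^ r = 1 := by
      rcases hz with rfl | rfl
      · exact hpow i
      · rw [inv_pow, hpow, inv_one]
    have h4 := mul_geom_sum z r
    rw [h3, sub_self] at h4
    exact (mul_eq_zero.1 h4).resolve_left (sub_ne_zero.2 h2)
  let π : ℕ → Module.End ℂ V := fun j => (∑ i ∈ range r, (η ^ j • ρ d) ^ i) * C
  have hπ : ∀ j v, π j v ∈ W C (ρ d) p (η ^ j) := fun j => sum_mem_W (hpow j) hD hCC hCD
  have htr : ∀ j, LinearMap.trace ℂ V (π j) = p * r * finrank ℂ (W C (ρ d) p (η ^ 0)) := by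
    intro j
    have h1 : LinearMap.IsProj (W C (ρ d) p (η ^ j)) (((p : ℂ) * r)⁻¹ • π j) := by
      refine ⟨fun v => Submodule.smul_mem _ _ (hπ j v), fun v hv => ?_⟩
      simp only [π, LinearMap.smul_apply, Module.End.mul_apply, (mem_W.1 hv).1, map_smul,
        LinearMap.sum_apply, pow_W hv, sum_const, card_range]
      rw [← Nat.cast_smul_eq_nsmul ℂ, smul_smul, smul_smul, mul_assoc,
        inv_mul_cancel₀ (mul_ne_zero hp0 hr0), one_smul]
    have h2 := h1.trace
    rw [map_smul, smul_eq_mul, inv_mul_eq_iff_eq_mul₀ (mul_ne_zero hp0 hr0)] at h2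
    rw [h2, le_antisymm (finrank_le ρ hr hd hC hb hCC hCD hm hT hη1 j 0)
      (finrank_le ρ hr hd hC hb hCC hCD hm hT hη1 0 j)]
  have hsum : ∑ j ∈ range r, π j = (r : ℂ) • C := by
    simp only [π, ← sum_mul]
    rw [sum_comm, sum_eq_single_of_mem 0 (mem_range.2 hr.pos)]
    · simp [Nat.cast_smul_eq_nsmul]
    · intro i hi hi0
      have h1 : ¬ r ∣ i := fun h => hi0 (Nat.eq_zero_of_dvd_of_lt h (mem_range.1 hi))
      simp only [smul_pow, ← sum_smul, ← pow_mul, mul_comm _ i]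
      simp only [pow_mul, hgeom i h1 _ (Or.inl rfl), zero_smul]
  have hmul : ∀ j, ρ (d ^ a) * π j = ((η ^ a)⁻¹) ^ j • π j := by
    intro j
    ext v
    have h1 := pow_W (hπ j v) a
    rw [smul_pow, ← map_pow, LinearMap.smul_apply] at h1
    rw [Module.End.mul_apply, LinearMap.smul_apply, inv_pow, ← pow_mul, mul_comm, pow_mul,
      eq_inv_smul_iff₀ (pow_ne_zero _ (pow_ne_zero _ hη0)), h1]
  have h5 : (r : ℂ) * LinearMap.trace ℂ V (ρ (d ^ a) * C) = 0 := by
    rw [← smul_eq_mul, ← map_smul, ← mul_smul_comm, ← hsum, mul_sum, map_sum]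
    simp only [hmul, map_smul, htr, smul_eq_mul, ← sum_mul, hgeom a ha _ (Or.inr rfl), zero_mul]
  exact (mul_eq_zero.1 h5).resolve_left hr0

theorem exists_reps (ρ : Representation ℂ G V) {r : ℕ} (hr : r.Prime) {d : G}
    (hd : orderOf d = r) (S : Finset G) (h1 : ∀ g ∈ S, d * g * d⁻¹ ∈ S)
    (h2 : ∀ g ∈ S, g * d ≠ d * g) :
    ∃ b ∈ A ρ, ∑ g ∈ S, ρ g = ∑ i ∈ range r, ρ (d ^ i) * b * ρ (d ^ i)⁻¹ := by
  classical
  induction S using Finset.strongInduction with
  | H S ih =>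
  rcases S.eq_empty_or_nonempty with rfl | ⟨g, hg⟩
  · exact ⟨0, zero_mem _, by simp⟩
  have hdr : d ^ r = 1 := hd ▸ pow_orderOf_eq_one d
  let T := (range r).image fun i => d ^ i * g * (d ^ i)⁻¹
  have hT : ∀ i : ℕ, d ^ i * g * (d ^ i)⁻¹ ∈ T := fun i =>
    mem_image.2 ⟨i % r, mem_range.2 (Nat.mod_lt _ hr.pos), by rw [← hd, pow_mod_orderOf]⟩
  have hTS : T ⊆ S := by
    intro x hx
    obtain ⟨i, -, rfl⟩ := mem_image.1 hx
    induction i with
    | zero => simpa using hg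
    | succ i ih' =>
      have := h1 _ (ih' (hT i))
      rwa [show d * (d ^ i * g * (d ^ i)⁻¹) * d⁻¹ = d ^ (i + 1) * g * (d ^ (i + 1))⁻¹ by group]
        at this
  have hinj : Set.InjOn (fun i => d ^ i * g * (d ^ i)⁻¹) (range r : Set ℕ) := by
    have key : ∀ i j, i < j → j < r → d ^ i * g * (d ^ i)⁻¹ ≠ d ^ j * g * (d ^ j)⁻¹ := by
      intro i j hij hj h
      obtain ⟨k, rfl⟩ := Nat.exists_eq_add_of_lt hij
      have h3 : Commute g (d ^ (k + 1)) := by
        have : g * d ^ (k + 1) = (d ^ i)⁻¹ * (d ^ i * g * (d ^ i)⁻¹) * d ^ (i + k + 1) := by group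
        rw [Commute, SemiconjBy, this, h]
        group
      have h4 : (k + 1).Coprime (orderOf d) := by
        rw [hd]
        exact (Nat.coprime_of_lt_prime (by omega) (by omega) hr).symm
      obtain ⟨l, hl⟩ := exists_pow_eq_self_of_coprime h4
      have h5 := h3.pow_right l
      rw [hl] at h5
      exact h2 g hg h5.eq
    intro i hi j hj h
    rcases lt_trichotomy i j with h3 | h3 | h3
    · exact absurd h (key i j h3 (by simpa using hj))
    · exact h3
    · exact absurd h.symm (key j i h3 (by simpa using hi))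
  obtain ⟨b, hb, hsum⟩ := ih (S \ T) (sdiff_ssubset hTS ⟨_, hT 0⟩) (fun x hx => by
      refine mem_sdiff.2 ⟨h1 x (mem_sdiff.1 hx).1, fun h => (mem_sdiff.1 hx).2 ?_⟩
      obtain ⟨i, -, hi⟩ := mem_image.1 h
      have h3 := hT (i + (r - 1))
      have h4 : d ^ (i + (r - 1)) = d⁻¹ * d ^ i := by
        rw [eq_inv_mul_iff_mul_eq, ← pow_succ', show i + (r - 1) + 1 = i + r by
          have := hr.pos; omega, pow_add, hdr, mul_one]
      rwa [h4, show d⁻¹ * d ^ i * g * (d⁻¹ * d ^ i)⁻¹ = d⁻¹ * (d ^ i * g * (d ^ i)⁻¹) * d by group,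
        hi, show d⁻¹ * (d * x * d⁻¹) * d = x by group] at h3)
    fun x hx => h2 x (mem_sdiff.1 hx).1
  refine ⟨b + ρ g, add_mem hb (mem_A ρ g), ?_⟩
  rw [← sum_sdiff hTS, hsum, sum_image hinj, ← sum_add_distrib]
  refine sum_congr rfl fun i _ => ?_
  rw [mul_add, add_mul, map_mul, map_mul]

end lin

theorem jobEX : JobEx.{u} := by
  intro G _ _ p r hp P d hP hI he χ c hc
  obtain ⟨χ, n, ρ, hρ, rfl⟩ := χ
  classical
  have hp := hp.out
  have hr := hI.hr
  have hdr : d ^ r = 1 := hI.ord ▸ pow_orderOf_eq_one d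
  have hord : ∀ z ∈ (P : Subgroup G), z ≠ 1 → orderOf z = p := fun z hz hz1 =>
    ((Nat.dvd_prime hp).1 (hP ▸ Subgroup.orderOf_dvd_natCard _ hz)).resolve_left
      fun h => hz1 (orderOf_eq_one_iff.1 h)
  have hcomm : ∀ z ∈ (P : Subgroup G), z * d = d * z := fun z hz =>
    Subgroup.mem_centralizer_iff.1 hI.mem z hz
  obtain ⟨x, hxP, hx1⟩ : ∃ x ∈ (P : Subgroup G), x ≠ 1 := by
    by_contra h
    push Not at h
    rw [(Subgroup.eq_bot_iff_forall _).2 h, Subgroup.card_bot] at hP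
    exact hp.one_lt.ne hP
  let F : Finset G := univ.filter (· ∈ (P : Subgroup G))
  have hF : ∀ z, z ∈ F ↔ z ∈ (P : Subgroup G) := fun z => by simp [F]
  have hFc : F.card = p := by rw [← hP, Nat.card_eq_fintype_card, Fintype.card_subtype]
  have h1F : (1 : G) ∈ F := (hF 1).2 (one_mem _)
  let K : Finset G := univ.filter (IsConj x ·)
  have hK : ∀ z, z ∈ K ↔ IsConj x z := fun z => by simp only [K, mem_filter, mem_univ, true_and]
  have hKF : K ∩ F = F.erase 1 := by
    refine eq_of_subset_of_card_le (fun z hz => mem_erase.2 ⟨?_, (mem_inter.1 hz).2⟩) ?_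
    · rintro rfl
      exact hx1 (isConj_one_left.1 ((hK 1).1 (mem_inter.1 hz).1))
    · have h1 := card_isConj_mem_prime hP hxP hx1
      rw [Nat.card_eq_fintype_card, Fintype.card_subtype] at h1
      have h2 : K ∩ F = univ.filter fun h => IsConj x h ∧ h ∈ (P : Subgroup G) := by
        ext z
        simp only [mem_inter, hK, hF, mem_filter, mem_univ, true_and]
      rw [card_erase_of_mem h1F, hFc, h2, h1]
      exact Nat.sub_le_iff_le_add.2 he.ge
  obtain ⟨w, hw⟩ : ∃ w : ℤ, ∑ g ∈ K, ρ g = (w : ℂ) • 1 := by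
    have h1 := H29.sum_conjClass_eq ρ x
    have h2 := H29.isIntegral_centralChar ρ x
    have h3 : ρ.character x = c := hc x (hord x hxP hx1).symm.dvd
    rw [h3] at h1 h2
    obtain ⟨w, hw⟩ := H29.exists_int_of_isIntegral_rat
      (q := (Subgroup.centralizer ({x} : Set G)).index * c / finrank ℂ (Fin n → ℂ))
      (by push_cast; exact h2)
    refine ⟨w, ?_⟩
    have h4 := congrArg (Rat.cast : ℚ → ℂ) hw
    push_cast at h4
    rw [← h4]
    exact h1
  obtain ⟨b, hb, hsum⟩ := exists_reps ρ hr hI.ord (K \ F) (fun g hg => by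
      refine mem_sdiff.2 ⟨(hK _).2 (((hK _).1 (mem_sdiff.1 hg).1).trans (isConj_iff.2 ⟨d, rfl⟩)),
        fun h => (mem_sdiff.1 hg).2 ?_⟩
      have h1 := hcomm _ ((hF _).1 h)
      rw [inv_mul_cancel_right, mul_right_inj] at h1
      exact h1 ▸ h)
    fun g hg h => (mem_sdiff.1 hg).2 ((hF g).2 (hI.only g (by
      obtain ⟨k, rfl⟩ := isConj_iff.1 ((hK _).1 (mem_sdiff.1 hg).1)
      rw [← hord x hxP hx1]
      exact orderOf_injective (MulAut.conj k).toMonoidHom (MulAut.conj k).injective x) h))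
  let Q : Module.End ℂ (Fin n → ℂ) := ∑ z ∈ F, ρ z
  have hQA : Q ∈ A ρ := sum_mem fun z _ => mem_A ρ z
  have hQQ : Q * Q = (p : ℂ) • Q := by
    rw [← hFc, Nat.cast_smul_eq_nsmul, ← sum_const]
    conv_lhs => rw [sum_mul]
    refine sum_congr rfl fun z hz => ?_
    rw [mul_sum]
    refine sum_bij' (fun y _ => z * y) (fun y _ => z⁻¹ * y) ?_ ?_ ?_ ?_ ?_
    · exact fun y hy => (hF _).2 (mul_mem ((hF _).1 hz) ((hF _).1 hy))
    · exact fun y hy => (hF _).2 (mul_mem (inv_mem ((hF _).1 hz)) ((hF _).1 hy))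
    · simp
    · simp
    · simp
  have hQd : Commute Q (ρ d) := Commute.sum_left _ _ _ fun z hz => by
    rw [Commute, SemiconjBy, ← map_mul, ← map_mul, hcomm z ((hF z).1 hz)]
  have hT : ∑ i ∈ range r, ρ (d ^ i) * b * ρ (d ^ i)⁻¹ = ((w : ℂ) + 1) • 1 - Q := by
    have h1 := sum_inter_add_sum_sdiff K F ρ
    have h2 := add_sum_erase F ρ h1F
    rw [hKF, hw, hsum] at h1
    rw [map_one] at h2
    rw [add_smul, one_smul, ← h1, show Q = _ from h2.symm]
    abel
  have htr : ∀ a : ℕ, LinearMap.trace ℂ _ (ρ (d ^ a) * Q) = ρ.character (d ^ a) + (p - 1) * c := by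
    intro a
    rw [mul_sum, map_sum, ← add_sum_erase F _ h1F, map_one, mul_one,
      sum_congr rfl (g := fun _ => (c : ℂ)), sum_const, card_erase_of_mem h1F, hFc, nsmul_eq_mul,
      Nat.cast_sub hp.one_le, Nat.cast_one]
    · rfl
    · intro z hz
      have hz1 := (hF z).1 (mem_erase.1 hz).2
      rw [← map_mul]
      refine hc _ ?_
      have h1 : Commute (d ^ a) z := (Commute.pow_right (hcomm z hz1) a).symm
      have h2 := orderOf_pow_dvd (x := d ^ a * z) r
      rw [h1.mul_pow, ← pow_mul, mul_comm a, pow_mul, hdr, one_pow, one_mul,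
        hord _ (pow_mem hz1 r)] at h2
      · exact h2
      · intro h
        have h3 := orderOf_dvd_of_pow_eq_one h
        rw [hord z hz1 (mem_erase.1 hz).1] at h3
        exact hI.ne ((Nat.prime_dvd_prime_iff_eq hp hr).1 h3).symm
  have hrp : ¬ (r : ℤ) ∣ p := fun h =>
    hI.ne ((Nat.prime_dvd_prime_iff_eq hr hp).1 (Int.natCast_dvd_natCast.1 h))
  have hrI := Nat.prime_iff_prime_int.1 hr
  by_cases hw1 : (r : ℤ) ∣ w + 1 - p
  · left
    intro a ha
    have hw2 : ¬ (r : ℤ) ∣ p * (w + 1) := fun h => (hrI.dvd_or_dvd h).elim hrp fun h =>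
      hrp (by simpa using dvd_sub h hw1)
    have h1 := trace_zero ρ hr hdr (C := (p : ℂ) • 1 - Q)
      (sub_mem (by rw [Nat.cast_smul_eq_nsmul]; exact nsmul_mem (one_mem _) p) hQA) hb (p := p)
      (by simp only [sub_mul, mul_sub, smul_mul_assoc, mul_smul_comm, one_mul, mul_one, hQQ,
        smul_sub]; abel)
      (((Commute.one_left _).smul_left _).sub_left hQd) hw2
      (by rw [hT]; push_cast; simp only [sub_mul, mul_sub, smul_mul_assoc, mul_smul_comm, one_mul,
        mul_one, hQQ, smul_sub, smul_smul]; module) a ha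
    rw [mul_sub, map_sub, htr, mul_smul_comm, map_smul, mul_one, smul_eq_mul] at h1
    have h2 : ((p : ℂ) - 1) ≠ 0 := sub_ne_zero.2 (by exact_mod_cast hp.one_lt.ne')
    refine mul_left_cancel₀ h2 ?_
    change (p : ℂ) * ρ.character (d ^ a) - _ = 0 at h1
    change _ * ρ.character (d ^ a) = _
    linear_combination h1
  · right
    intro a ha
    have h1 := trace_zero ρ hr hdr hQA hb hQQ hQd (m := w + 1 - p)
      (fun h => (hrI.dvd_or_dvd h).elim hrp hw1)
      (by rw [hT]; push_cast; simp only [mul_sub, mul_smul_comm, mul_one, hQQ]; module) a ha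
    rw [htr] at h1
    change ρ.character (d ^ a) = _
    linear_combination h1

end H7.NGEx
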