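import Cfsg.Agent.H74.O11Kit
import Cfsg.Agent.H74.O11Res
import Cfsg.Agent.H7.SylowIn
import Cfsg.Agent.S1241

/-! Job E3 of the O11 tower. -/

set_option autoImplicit false

namespace H7.O11

open Subgroup MulAction H74.O11

universe u

variable {G Ω : Type u} [Group G] [Finite G] [MulAction G Ω] [Finite Ω] {Γ : Geo G Ω} {a b : Ω}
  {g s t z : G}

structure E3 (Γ : Geo G Ω) : Prop where
  one : One Γ
  e1 : E1 Γ
  card : Nat.card Ω = 1332
  uq : ∀ a b, a ≠ b → (invs (Γ.Z a b)).ncard = 1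

theorem lz_sq (h : LPair Γ a b) {l : G} (hl : l ∈ Γ.L a b) (hz : z ∈ Γ.Z a b) (n : ℕ)
    (e : (l * z) ^ n = 1) : l ^ n = 1 ∧ z ^ n = 1 := by
  rw [(show Commute l z from Γ.mem_Z.1 hz l hl).mul_pow] at e
  have : l ^ n = 1 := h.LZ (pow_mem hl n) (eq_inv_of_mul_eq_one_left e ▸ inv_mem (pow_mem hz n))
  exact ⟨this, by simpa [this] using e⟩

theorem mem_K {x : G} : x ∈ Γ.L a b ⊔ Γ.Z a b ↔ ∃ l ∈ Γ.L a b, ∃ z ∈ Γ.Z a b, x = l * z :=
  H7.mem_sup_iff_of_le_normalizer (centralizer_le_normalizer _)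

namespace E3

variable (h : E3 Γ)
include h

theorem inv_eq (hab : a ≠ b) (hs : s ∈ invs (Γ.Z a b)) (hz : z ∈ Γ.Z a b) (e : z * z = 1) :
    z = 1 ∨ z = s := by
  obtain ⟨c, hc⟩ := Set.ncard_eq_one.1 (h.uq a b hab)
  by_cases h1 : z = 1
  · exact Or.inl h1
  · have : z ∈ invs (Γ.Z a b) := ⟨hz, e, h1⟩
    rw [hc] at this hs
    exact Or.inr (this.trans hs.symm)

theorem inC (hab : a ≠ b) (ht : t ∈ Γ.L a b) (tt : t * t = 1) (hz : z ∈ Γ.Z a b) (zz : z * z = 1) :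
    ∃ c, t * z ∈ Γ.A c := by
  by_cases e : t • a = a
  · rw [(h.one.lp a b hab).inv_fpf ht tt (Γ.on_left a b) e, one_mul]
    exact ⟨a, (Γ.mem_Z_iff.1 hz).1⟩
  have on := Γ.on_smul_of_mem ht (Γ.on_left a b)
  obtain ⟨k, e1, -, e3⟩ := h.e1 a (t • a) (Ne.symm e)
  rw [h.uq a _ (Ne.symm e)] at e1 e3
  rw [h.card] at e1
  refine e3 (by omega) t ?_ tt rfl z ?_ zz
  · rwa [h.one.line_eq a b a _ hab (Γ.on_left a b) on (Ne.symm e)]
  · rwa [h.one.toOne1.Z_eq hab (Γ.on_left a b) on (Ne.symm e)]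

/-- An involution centralising a member and preserving a line lies in `L Z`. -/
theorem inK (hab : a ≠ b) {c : Ω} (ht : t ∈ Γ.A c) (tt : t * t = 1) (h1 : Γ.On a b (t • a))
    (h2 : Γ.On a b (t • b)) : ∃ l ∈ Γ.L a b, ∃ z ∈ Γ.Z a b, t = l * z :=
  (h.one.odd a b t hab h1 h2 (tt ▸ one_mem _)).resolve_right fun ⟨d, _, e, w⟩ => by
    rw [h.one.toOne1.w_one_of ht e] at w
    exact absurd w (by decide)

theorem no4Z (hab : a ≠ b) {w : G} (hw : w ∈ Γ.Z a b) (e : w ^ 4 = 1) : w ^ 2 = 1 := by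
  by_contra n
  have o := h.one.toOne1
  have hz : w * w ∈ invs (Γ.Z a b) := ⟨mul_mem hw hw, by rw [← e, ← pow_two, ← pow_two, ← pow_mul], by rwa [← pow_two]⟩
  obtain ⟨y, s, f⟩ := h.one.frame a b hab
  have s1 : s ≠ 1 := fun e => hab (by simpa [e] using f.sa)
  obtain ⟨c, hc⟩ := h.inC hab f.sL f.ss (one_mem _) (mul_one 1)
  rw [mul_one] at hc
  obtain ⟨d, hd, sd⟩ := exists_fix_ne f.ss (by rw [h.card]; decide) (A_fix hc)
  have hs : s ∈ invs (Γ.Z c d) := ⟨o.memZ c d s hd.symm (A_fix hc) sd (A_w hc), f.ss, s1⟩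
  obtain ⟨g, rfl, rfl⟩ := o.two' a b c d hab hd.symm
  have hw' := Γ.conj_mem_Z g hw
  have sq : g * w * g⁻¹ * (g * w * g⁻¹) = s := by
    refine (h.inv_eq hd.symm hs (mul_mem hw' hw') ?_).resolve_left ?_
    · rw [conj_mul, conj_mul, hz.2.1]; simp
    · rw [conj_mul]; simpa using hz.2.2
  generalize g * w * g⁻¹ = w' at hw' sq
  have ws : w' * s = s * w' := by rw [← sq, mul_assoc]
  have key : ∀ t, (∃ e, t ∈ Γ.A e) → t * t = 1 → t * s = s * t → w' * t = t * w' := by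
    rintro t ⟨e, he⟩ tt ts
    obtain ⟨l, hl, z', hz', rfl⟩ := h.inK hd.symm he tt
      (o.on_of_comm hd.symm hs.1 s1 ts (Γ.on_left _ _))
      (o.on_of_comm hd.symm hs.1 s1 ts (Γ.on_right _ _))
    have := (lz_sq (o.lp _ _ hd.symm) hl hz' 2 (by rw [pow_two, tt])).2
    rw [← mul_assoc, ← Γ.mem_Z.1 hw' l hl, mul_assoc, mul_assoc]
    rcases h.inv_eq hd.symm hs hz' (by rwa [← pow_two]) with rfl | rfl
    · simp
    · rw [ws]
  have k1 := key (w * w) ⟨a, (Γ.mem_Z_iff.1 hz.1).1⟩ hz.2.1 (Γ.mem_Z.1 hz.1 s f.sL).symm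
  obtain ⟨t, tL, tt, t1, ts, tc⟩ := (o.lp a b hab).four s f.sL f.ss s1
  have k2 := key t (by simpa using h.inC hab tL tt (one_mem _) (mul_one 1)) tt tc
  have w4 : w' ^ 4 = 1 := by rw [show 4 = 2 * 2 from rfl, pow_mul, pow_two w', sq, pow_two, f.ss]
  have : Fact (Nat.Prime 2) := ⟨Nat.prime_two⟩
  have ow : orderOf w' = 2 ^ 2 := orderOf_eq_prime_pow (by rw [pow_one, pow_two, sq]; exact s1) w4
  have cm : Commute w' t := k2
  have t2 : ∀ j : ℕ, t ^ j * t ^ j = 1 := fun j => by rw [← pow_two, ← pow_mul, mul_comm, pow_mul, pow_two, tt, one_pow]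
  let K : Subgroup G :=
    { carrier := {x | ∃ i j : ℕ, x = w' ^ i * t ^ j}
      one_mem' := ⟨0, 0, by simp⟩
      mul_mem' := by
        rintro _ _ ⟨i, j, rfl⟩ ⟨k, l, rfl⟩
        exact ⟨i + k, j + l, by
          rw [pow_add, pow_add, mul_assoc, ← mul_assoc (t ^ j), ← (cm.pow_pow k j).eq]; group⟩
      inv_mem' := by
        rintro _ ⟨i, j, rfl⟩
        refine ⟨3 * i, j, inv_eq_of_mul_eq_one_right ?_⟩
        rw [mul_assoc, ← mul_assoc (t ^ j), ← (cm.pow_pow _ j).eq, mul_assoc, t2, mul_one, ← pow_add,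
          show i + 3 * i = 4 * i by ring, pow_mul, w4, one_pow] }
  have dec : ∀ x ∈ K, x * x = s ∨ (x * x = 1 ∧ x ∈ Γ.L a b) := by
    rintro _ ⟨i, j, rfl⟩
    have e : w' ^ i * t ^ j * (w' ^ i * t ^ j) = s ^ i := by
      rw [mul_assoc, ← mul_assoc (t ^ j), ← (cm.pow_pow _ j).eq, mul_assoc, t2, mul_one, ← sq,
        (Commute.refl w').mul_pow]
    rw [e]
    obtain ⟨k, rfl | rfl⟩ := Nat.even_or_odd' i
    · refine Or.inr ⟨by rw [pow_mul, pow_two, f.ss, one_pow], ?_⟩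
      rw [pow_mul, pow_two, sq]
      exact mul_mem (pow_mem f.sL k) (pow_mem tL j)
    · exact Or.inl (by rw [pow_succ, pow_mul, pow_two, f.ss, one_pow, one_mul])
  have dv := card_dvd_of_free K {c | Γ.On a b c} (Set.toFinite _) (by
    rintro _ ⟨i, j, rfl⟩ c hc
    rw [mul_smul]
    exact o.on_of_comm hab hz.1 hz.2.2 ((show Commute w' (w * w) from k1).pow_left i).eq
      (Γ.on_smul_of_mem (pow_mem tL j) hc)) fun x hx c hc e => by
    rcases dec x hx with q | q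
    · exact absurd ((o.lp a b hab).inv_fpf f.sL f.ss hc (by rw [← q, mul_smul, e, e])) s1
    · exact (o.lp a b hab).inv_fpf q.2 q.1 hc e
  rw [(o.lp a b hab).line] at dv
  obtain ⟨n, hn⟩ := IsPGroup.iff_card.1 (show IsPGroup 2 K from fun x => ⟨2, Subtype.ext (by
    change (x : G) ^ (2 * 2) = 1
    rcases dec x x.2 with q | q
    · rw [pow_mul, pow_two (x : G), q, pow_two, f.ss]
    · rw [pow_mul, pow_two (x : G), q.1, one_pow])⟩)
  have le : zpowers w' ≤ K := zpowers_le.2 ⟨1, 0, by simp⟩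
  have n2 : n ≤ 2 := by
    by_contra q
    have : 2 ^ 3 ∣ 12 := (pow_dvd_pow 2 (by omega)).trans (hn ▸ dv)
    omega
  have := eq_of_le_of_card_ge le (by
    rw [hn, Nat.card_zpowers, ow]; exact Nat.pow_le_pow_right two_pos n2)
  obtain ⟨i, hi⟩ : t ∈ zpowers w' := this ▸ (⟨0, 1, by simp⟩ : t ∈ K)
  have hi : w' ^ i = t := hi
  have w4' : w' ^ (4 : ℤ) = 1 := by exact_mod_cast w4
  have e2 : w' ^ (2 : ℤ) = s := by rw [← sq, zpow_two]
  rw [← zpow_eq_zpow_emod i w4' |>.symm] at hi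
  have : i % 4 = 0 ∨ i % 4 = 1 ∨ i % 4 = 2 ∨ i % 4 = 3 := by omega
  rcases this with q | q | q | q <;> rw [q] at hi
  · exact t1 (by simpa using hi.symm)
  · exact s1 (by rw [← sq, ← tt, ← hi, zpow_one])
  · exact ts (hi.symm.trans e2)
  · refine s1 ?_
    rw [← tt, ← hi, ← zpow_add, show (3 + 3 : ℤ) = 4 + 2 from rfl, zpow_add, w4', one_mul, e2]

theorem sqK (hab : a ≠ b) (n : ℕ) : ∀ x ∈ Γ.L a b ⊔ Γ.Z a b, x ^ 2 ^ n = 1 → x ^ 2 = 1 := by
  have k : ∀ x ∈ Γ.L a b ⊔ Γ.Z a b, x ^ 4 = 1 → x ^ 2 = 1 := fun x hx e => by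
    obtain ⟨l, hl, z, hz, rfl⟩ := mem_K.1 hx
    obtain ⟨e1, e2⟩ := lz_sq (h.one.lp a b hab) hl hz 4 e
    rw [(show Commute l z from Γ.mem_Z.1 hz l hl).mul_pow, (h.one.lp a b hab).no4 l hl e1,
      h.no4Z hab hz e2, one_mul]
  induction n with
  | zero => exact fun x _ e => by rw [pow_zero, pow_one] at e; simp [e]
  | succ n ih =>
    intro x hx e
    exact k x hx (by
      rw [show 4 = 2 * 2 from rfl, pow_mul]
      exact ih _ (pow_mem hx 2) (by rw [← pow_mul, ← pow_succ', e]))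

end E3

theorem onM {x : G} (hx : x ∈ normalizer (Γ.L a b : Set G)) {c : Ω} (hc : Γ.On a b c) :
    Γ.On a b (x • c) := Γ.sub_smul_le (fun _ hy => H7.conj_mem_of_mem_normalizer hx hy) hc

theorem HK {y : G} (f : Frame Γ a b y s) (hg : g ∈ Γ.H a b) (e : Γ.w g a ^ 5 = 1) :
    g ∈ Γ.L a b ⊔ Γ.Z a b := by
  obtain ⟨z, hz, i, rfl⟩ := f.dec g hg e
  exact mul_mem (mem_sup_right hz) (mem_sup_left (pow_mem f.yL i))

theorem jobE3 : JobE3.{u} := by
  intro hAb G Ω _ _ _ _ Γ one e1 card uq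
  have h : E3 Γ := ⟨one, e1, card, uq⟩
  have o := one.toOne1
  have : Fact (Nat.Prime 2) := ⟨Nat.prime_two⟩
  obtain ⟨a, b, -, hab, -⟩ := o.big
  obtain ⟨y, s, f⟩ := one.frame a b hab
  obtain ⟨z, hz⟩ := Set.ncard_eq_one.1 (uq a b hab)
  have hz : z ∈ invs (Γ.Z a b) := hz ▸ rfl
  have cG := one.cardG a b hab
  have idx : (normalizer (Γ.L a b : Set G)).index = 13431 := by
    have := (normalizer (Γ.L a b : Set G)).index_mul_card
    rw [one.cardM a b hab, cG, card] at this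
    have p : 0 < Nat.card (Γ.H a b) := Nat.card_pos
    nlinarith
  have fac : ∀ x ∈ normalizer (Γ.L a b : Set G), ∃ l ∈ Γ.L a b, ∃ k ∈ Γ.H a b, x = l * k :=
    fun x hx => one.facM a b x hab (onM hx (Γ.on_left a b)) (onM hx (Γ.on_right a b))
  have KM : Γ.L a b ⊔ Γ.Z a b ≤ normalizer (Γ.L a b : Set G) :=
    sup_le le_normalizer (centralizer_le_normalizer _)
  rcases one.cardH a b hab with ⟨w5, cH⟩ | ⟨⟨o', ho, wo⟩, -⟩
  · obtain ⟨T, hT⟩ := H7.exists_isSylowIn (p := 2) (normalizer (Γ.L a b : Set G))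
    obtain ⟨S, rfl⟩ := (hT.trans_not_dvd le_top (by rw [relIndex_top_right, idx]; decide)).exists_sylow
    have sq : ∀ x ∈ (S : Subgroup G), x * x = 1 := fun x hx => by
      obtain ⟨l, hl, k, hk, e⟩ := fac x (hT.le hx)
      obtain ⟨n, hn⟩ := hT.isPGroup ⟨x, hx⟩
      rw [← pow_two]
      exact h.sqK hab n x (e ▸ mul_mem (mem_sup_left hl) (HK f hk (w5 k hk))) (congrArg Subtype.val hn)
    have oz : orderOf z = 2 := orderOf_eq_prime (by rw [pow_two, hz.2.1]) hz.2.2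
    have d2 : 2 ∣ Nat.card (Γ.Z a b) := oz ▸ orderOf_dvd_natCard _ hz.1
    have := hAb G o.simple S ⟨⟨fun x x' => Subtype.ext (by
      change (x : G) * x' = x' * x
      rw [← inv_eq_of_mul_eq_one_right (sq _ (mul_mem x.2 x'.2)), mul_inv_rev,
        inv_eq_of_mul_eq_one_right (sq _ x.2), inv_eq_of_mul_eq_one_right (sq _ x'.2)])⟩⟩
      (by obtain ⟨m, hm⟩ := d2; rw [cG, card, cH, hm]; omega)
      ⟨y * z, by rw [(show Commute y z from Γ.mem_Z.1 hz.1 y f.yL).orderOf_mul_eq_mul_orderOf_of_coprime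
        (by rw [f.oy, oz]; decide), f.oy, oz]⟩
    rw [cG, card] at this
    omega
  obtain ⟨n, m, hm, e⟩ := Nat.exists_eq_two_pow_mul_odd (orderOf_pos o').ne'
  have hg : o' ^ m ∈ Γ.H a b := pow_mem ho m
  have wg : Γ.w (o' ^ m) a = -1 := by rw [Γ.w_pow ho.1, wo, hm.neg_one_pow]
  have g2 : (o' ^ m) ^ 2 ^ n = 1 := by rw [← pow_mul, mul_comm, ← e, pow_orderOf_eq_one]
  generalize o' ^ m = g at hg wg g2
  have nK : ∀ x ∈ normalizer (Γ.L a b : Set G), ∀ k ∈ Γ.L a b ⊔ Γ.Z a b,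
      x * k * x⁻¹ ∈ Γ.L a b ⊔ Γ.Z a b := fun x hx k hk => by
    obtain ⟨l, hl, z, hz, rfl⟩ := mem_K.1 hk
    rw [← conj_mul]
    exact mul_mem (mem_sup_left (H7.conj_mem_of_mem_normalizer hx hl)) (mem_sup_right
      (H7.conj_mem_of_mem_normalizer (H7.normalizer_le_normalizer_centralizer _ hx) hz))
  have two : ∀ x ∈ normalizer (Γ.L a b : Set G), ∀ x' ∈ normalizer (Γ.L a b : Set G),
      x ∉ Γ.L a b ⊔ Γ.Z a b → x' ∉ Γ.L a b ⊔ Γ.Z a b → x * x'⁻¹ ∈ Γ.L a b ⊔ Γ.Z a b := by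
    intro x hx x' hx' n1 n2
    obtain ⟨l, hl, k, hk, rfl⟩ := fac x hx
    obtain ⟨l', hl', k', hk', rfl⟩ := fac x' hx'
    have q1 : Γ.w k a ^ 5 ≠ 1 := fun q => n1 (mul_mem (mem_sup_left hl) (HK f hk q))
    have q2 : Γ.w k' a ^ 5 ≠ 1 := fun q => n2 (mul_mem (mem_sup_left hl') (HK f hk' q))
    have : k * k'⁻¹ ∈ Γ.L a b ⊔ Γ.Z a b := HK f (mul_mem hk (inv_mem hk')) (by
      rw [Γ.w_mul hk.1 (inv_mem hk').1]
      have r1 := Γ.w_inv_mul hk'.1
      have r2 := Γ.w_ne_zero hk.1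
      revert q1 q2 r1 r2
      generalize Γ.w k a = p, Γ.w k' a = q, Γ.w k'⁻¹ a = r
      revert p q r
      decide)
    rw [mul_inv_rev, mul_assoc, ← mul_assoc k]
    exact mul_mem (mem_sup_left hl) (mul_mem this (mem_sup_left (inv_mem hl')))
  have out : ∀ (x : G) (c : Ω), x ^ 2 ^ n = 1 → x • c = c → Γ.w x c = -1 →
      x ∉ Γ.L a b ⊔ Γ.Z a b := fun x c e1 e2 e3 hx => by
    have := h.sqK hab n x hx e1
    obtain ⟨l, hl, z, hz, rfl⟩ := mem_K.1 hx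
    obtain ⟨q1, q2⟩ := lz_sq (o.lp a b hab) hl hz 2 this
    obtain ⟨d, hd⟩ := h.inC hab hl (by rwa [← pow_two]) hz (by rwa [← pow_two])
    rw [o.w_one_of hd e2] at e3
    exact absurd e3 (by decide)
  have gM : g ∈ normalizer (Γ.L a b : Set G) :=
    H7.mem_normalizer_of_forall fun x hx => conj_H_L hg hx
  have ggZ : g ^ 2 ∈ Γ.Z a b := o.memZ a b _ hab (pow_mem hg 2).1 (pow_mem hg 2).2
    (by rw [Γ.w_pow hg.1, wg]; decide)
  have gg : (g ^ 2) ^ 2 = 1 := h.sqK hab n _ (mem_sup_right ggZ) (by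
    rw [← pow_mul, mul_comm, pow_mul, g2, one_pow])
  refine Cfsg.Agent.S1241.result (p := 2) (normalizer (Γ.L a b : Set G)) (Γ.L a b ⊔ Γ.Z a b) KM
    ⟨fun k hk x => nK x x.2 k hk⟩ (fun x hx x' hx' => ?_) (by rw [idx]; decide) g gM
    (out g a g2 hg.1 wg) ((Nat.dvd_prime_pow Nat.prime_two).1 (orderOf_dvd_of_pow_eq_one g2) |>.imp
      fun _ h => h.2) (fun m x hx => ?_) ?_
  · by_cases q : x' ∈ Γ.L a b ⊔ Γ.Z a b
    · exact mul_mem (nK x hx x' q) (inv_mem q)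
    · refine two _ (mul_mem (mul_mem hx hx') (inv_mem hx)) _ hx' (fun q' => q ?_) q
      simpa [mul_assoc] using nK _ (inv_mem hx) _ q'
  · obtain ⟨j, rfl | rfl⟩ := Int.even_or_odd' m
    · have m1 : g ^ (2 * j) ∈ Γ.Z a b := by
        rw [zpow_mul]; exact zpow_mem (by simpa using ggZ) j
      have m2 : g ^ (2 * j) * g ^ (2 * j) = 1 := by
        rw [← zpow_add, show 2 * j + 2 * j = ((2 * 2 : ℕ) : ℤ) * j by push_cast; ring, zpow_mul,
          zpow_natCast, pow_mul, gg, one_zpow]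
      exact mul_mem (mem_K.2 (h.inK hab (Γ.conj_mem_A x (Γ.mem_Z_iff.1 m1).1)
        (by rw [conj_mul, m2]; simp) (onM hx (Γ.on_left a b)) (onM hx (Γ.on_right a b))))
        (mem_sup_right (inv_mem m1))
    · have m1 : g ^ (2 * j) ∈ Γ.Z a b := by
        rw [zpow_mul]; exact zpow_mem (by simpa using ggZ) j
      have f1 : g ^ (2 * j + 1) • a = a := (zpow_mem hg _).1
      have w1 : Γ.w (g ^ (2 * j + 1)) a = -1 := by
        rw [zpow_add_one, Γ.w_mul (Γ.Z_le_H a b m1).1 hg.1, Z_w m1 (Γ.on_left a b), wg, one_mul]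
      have p1 : (g ^ (2 * j + 1)) ^ 2 ^ n = 1 := by
        rw [← zpow_natCast, ← zpow_mul, mul_comm, zpow_mul, zpow_natCast, g2, one_zpow]
      exact two _ hx _ (zpow_mem gM _) (out _ (x • a) (by rw [conj_pow, p1]; simp)
        (by simp [mul_smul, f1]) (by rw [Γ.w_conj x f1, w1])) (out _ a p1 f1 w1)
  · have := o.simple
    rcases (inferInstance : (commutator G).Normal).eq_bot_or_eq_top with q | q
    · have : s * y * s⁻¹ * y⁻¹ ∈ commutator G :=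
        commutator_mem_commutator (mem_top s) (mem_top y)
      rw [q, f.sy, mem_bot, ← mul_inv_rev, inv_eq_one, ← pow_two] at this
      have := orderOf_dvd_of_pow_eq_one this
      rw [f.oy] at this
      omega
    · exact q ▸ mem_top g

end H7.O11
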