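import Cfsg.Agent.H52.RCSpec

/-! RC-DP (tower RC, S3860): elementwise facts on the configuration `DC`. -/

set_option autoImplicit false

namespace H7.RcDP

open H52.RC Subgroup

universe u

theorem comm_of_conj {G : Type u} [Group G] {g x : G} (h : g * x * g⁻¹ = x) : Commute g x := by
  show g * x = x * g
  calc g * x = g * x * g⁻¹ * g := by group
    _ = x * g := by rw [h]

theorem conj_of_comm {G : Type u} [Group G] {g x : G} (h : Commute g x) : g * x * g⁻¹ = x := by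
  rw [h.eq]; group

theorem jobDP : JobDP.{u} := by
  intro _ _ dj G _ _ L _ Q a b h
  have QL : Q ≤ L := h.syl.1
  have aL : a ∈ L := h.ha.1
  have bL : b ∈ L := h.hb.1
  have za : a ^ 2 ∈ Zc L := h.ha.2.2.1
  have zb : b ^ 2 ∈ Zc L := h.hb.2.2.1
  have ba : b * a * b⁻¹ = a⁻¹ := h.ba
  have ba' : b * a⁻¹ * b⁻¹ = a := by
    calc b * a⁻¹ * b⁻¹ = (b * a * b⁻¹)⁻¹ := by group
      _ = a := by rw [ba, inv_inv]
  have ia2 : (a ^ 2)⁻¹ = a ^ 2 := by
    have e : b * a ^ 2 * b⁻¹ = (a ^ 2)⁻¹ := h.ba.pow 2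
    rw [← e]
    exact conj_of_comm ((mem_Zc.1 za).2 b bL)
  have a4 : a ^ 4 = 1 := by
    calc a ^ 4 = a ^ 2 * a ^ 2 := by group
      _ = a ^ 2 * (a ^ 2)⁻¹ := by rw [ia2]
      _ = 1 := by group
  have nba : b * a * b⁻¹ ≠ a := by
    intro e
    apply h.a2
    rw [ba] at e
    rw [pow_two]
    nth_rewrite 1 [← e]
    group
  have aba : a * b * a⁻¹ = a ^ 2 * b := by
    calc a * b * a⁻¹ = a * (b * a⁻¹ * b⁻¹) * b := by group
      _ = a ^ 2 * b := by rw [ba', pow_two]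
  have aCt : a ∈ Ct L b := by
    rw [mem_Ct, aba, mul_inv_cancel_right]
    exact za
  have nab : a * b * a⁻¹ ≠ b := by
    rw [aba]
    intro e
    exact h.a2 (mul_eq_right.1 e)
  have p1 : ∀ q ∈ Q, Commute q a ∨ (Inv q a ∧ Commute (b⁻¹ * q) a) := by
    intro q hq
    by_cases e : q * a * q⁻¹ = a
    · exact Or.inl (comm_of_conj e)
    · have e2 := h.two a h.ha q (h.cen hq) b (h.cen h.bQ) e nba
      refine Or.inr ⟨e2.trans ba, comm_of_conj ?_⟩
      calc b⁻¹ * q * a * (b⁻¹ * q)⁻¹ = b⁻¹ * (q * a * q⁻¹) * b := by group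
        _ = a := by rw [e2]; group
  have p2 : b ^ 2 = 1 ∨ b ^ 2 = a ^ 2 := by
    obtain ⟨g, -, hg⟩ := h.hb.2.2.2
    have hg' : g * b * g⁻¹ = b⁻¹ := hg
    by_cases e : g * b * g⁻¹ = b
    · left
      rw [hg'] at e
      rw [pow_two]
      nth_rewrite 1 [← e]
      group
    · right
      have gCt : g ∈ Ct L b := by
        rw [mem_Ct, hg', show b⁻¹ * b⁻¹ = (b ^ 2)⁻¹ by group]
        exact inv_mem zb
      have e2 := h.two b h.hb g gCt a aCt e nab
      rw [hg', aba] at e2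
      calc b ^ 2 = (a ^ 2)⁻¹ * (a ^ 2 * b) * b := by rw [inv_mul_cancel_left, pow_two]
        _ = a ^ 2 := by rw [← e2, ia2]; group
  have p3 : ∀ d ∈ L, Commute d a → Commute d b → d ^ 2 = 1 → d ∈ Zc L := by
    intro d hd da db d2
    by_contra hz
    refine h.ng d ⟨hd, hz, d2 ▸ one_mem _, 1, one_mem _, ?_⟩ da db
    show 1 * d * 1⁻¹ = d⁻¹
    calc 1 * d * 1⁻¹ = d ^ 2 * d⁻¹ := by group
      _ = d⁻¹ := by rw [d2, one_mul]
  -- the element `j = c⁻¹ (b c b⁻¹)`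
  have hj : ∀ c ∈ Q, Commute c a → c⁻¹ * (b * c * b⁻¹) ∈ Q ∧ Commute (c⁻¹ * (b * c * b⁻¹)) a ∧
      Inv b (c⁻¹ * (b * c * b⁻¹)) := by
    intro c hc ca
    refine ⟨mul_mem (inv_mem hc) (mul_mem (mul_mem h.bQ hc) (inv_mem h.bQ)),
      Commute.mul_left ca.inv_left ?_, ?_⟩
    · rw [← ba']
      have := ca.inv_right.eq
      show _ * _ = _ * _
      calc b * c * b⁻¹ * (b * a⁻¹ * b⁻¹) = b * (c * a⁻¹) * b⁻¹ := by group
        _ = b * (a⁻¹ * c) * b⁻¹ := by rw [this]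
        _ = _ := by group
    · have e := conj_of_comm ((mem_Zc.1 zb).2 c (QL hc)).symm
      show _ = _
      calc b * (c⁻¹ * (b * c * b⁻¹)) * b⁻¹ = b * c⁻¹ * b⁻¹ * (b ^ 2 * c * (b ^ 2)⁻¹) := by group
        _ = _ := by rw [e]; group
  have p4 : ∀ c ∈ Q, Commute c a → ¬ Commute c b → c ^ 2 ∈ Zc L →
      b * c * b⁻¹ = c * a ^ 2 ∧ Commute (a⁻¹ * c) b := by
    intro c hc ca cb c2
    obtain ⟨jQ, ja, jb⟩ := hj c hc ca
    set j := c⁻¹ * (b * c * b⁻¹) with hjd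
    have cj : Commute c j := dj G L Q a b h j jQ ja jb c hc ca
    have bc : b * c * b⁻¹ = c * j := by rw [hjd]; group
    have j2 : j ^ 2 = 1 := by
      have e1 : (c * j) ^ 2 = c ^ 2 * j ^ 2 := cj.mul_pow 2
      have e2 : (c * j) ^ 2 = c ^ 2 := by
        rw [← bc, conj_pow]
        exact conj_of_comm ((mem_Zc.1 c2).2 b bL)
      exact mul_eq_left.1 (e1.symm.trans e2)
    have ji : j⁻¹ = j := by
      calc j⁻¹ = j ^ 2 * j⁻¹ := by rw [j2, one_mul]
        _ = j := by group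
    have jz : j ∈ Zc L := p3 j (QL jQ) ja (comm_of_conj (jb.trans ji)).symm j2
    have cbc : c * b * c⁻¹ = j * b := by
      calc c * b * c⁻¹ = c * (b * c * b⁻¹)⁻¹ * b := by group
        _ = c * j⁻¹ * c⁻¹ * b := by rw [bc]; group
        _ = j * b := by rw [ji, conj_of_comm cj]
    have cCt : c ∈ Ct L b := by
      rw [mem_Ct, cbc, mul_inv_cancel_right]
      exact jz
    have e2 := h.two b h.hb c cCt a aCt (fun e => cb (comm_of_conj e)) nab
    rw [cbc, aba] at e2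
    have e3 : j = a ^ 2 := mul_right_cancel e2
    refine ⟨by rw [bc, e3], (comm_of_conj ?_).symm⟩
    calc b * (a⁻¹ * c) * b⁻¹ = (b * a⁻¹ * b⁻¹) * (b * c * b⁻¹) := by group
      _ = a * (c * a ^ 2) := by rw [ba', bc, e3]
      _ = a * (a ^ 2 * c) := by rw [(ca.pow_right 2).eq]
      _ = a ^ 4 * (a⁻¹ * c) := by group
      _ = a⁻¹ * c := by rw [a4, one_mul]
  have p5 : ∀ d ∈ Q, Commute d a → Commute d b → ∀ t ∈ Q, Commute t a →
      Commute (t * d * t⁻¹) a ∧ Commute (t * d * t⁻¹) b := by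
    intro d hd da db t ht ta
    obtain ⟨jQ, ja, jb⟩ := hj t ht ta
    set j := t⁻¹ * (b * t * b⁻¹) with hjd
    have dj' : Commute d j := dj G L Q a b h j jQ ja jb d hd da
    have bt : b * t * b⁻¹ = t * j := by rw [hjd]; group
    refine ⟨(ta.mul_left da).mul_left ta.inv_left, (comm_of_conj ?_).symm⟩
    calc b * (t * d * t⁻¹) * b⁻¹ = (b * t * b⁻¹) * (b * d * b⁻¹) * (b * t * b⁻¹)⁻¹ := by group
      _ = t * (j * d * j⁻¹) * t⁻¹ := by rw [bt, conj_of_comm db.symm]; group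
      _ = _ := by rw [conj_of_comm dj'.symm]
  refine ⟨a4, p1, p2, p3, p4, fun d hd da db q hq => ?_⟩
  rcases p1 q hq with e | ⟨-, e⟩
  · exact p5 d hd da db q hq e
  · have r := p5 d hd da db _ (mul_mem (inv_mem h.bQ) hq) e
    have : q * d * q⁻¹ = b⁻¹ * q * d * (b⁻¹ * q)⁻¹ := by
      rw [← conj_of_comm r.2.symm]; group
    rw [this]
    exact r

end H7.RcDP
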