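import Cfsg.Agent.H91.VCSpec
import Cfsg.Agent.H33.SolvMain

/-! VC tower (row S4070): the jobs AFF, X13, O27. -/

set_option autoImplicit false
set_option linter.unusedSectionVars false

namespace H7.VCA

open H33.Solv H91.VC Subgroup MulAction
open scoped commutatorElement

theorem aff_core {G : Type} [Group G] [Finite G] (hs : Group.IsSolvable G)
    {H : Subgroup G} (hH : IsCoatom H) (h0 : ∀ x, (∀ g, g * x * g⁻¹ ∈ H) → x = 1) :
    ∃ (M : Type) (_ : AddCommGroup M) (_ : Finite M) (_ : DistribMulAction G M) (β : G → M), Aff H β := by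
  have : Nontrivial G := not_subsingleton_iff_nontrivial.1 fun _ => hH.1 (Subsingleton.elim _ _)
  obtain ⟨M, hMn, hM0, hmin⟩ := H2.exists_minimal_normal G
  have hc := (H2.isMulCommutative_of_minimal_normal hmin)
  have hcm : ∀ a ∈ M, ∀ b ∈ M, a * b = b * a := fun a ha b hb =>
    congrArg Subtype.val (hc.is_comm.comm ⟨a, ha⟩ ⟨b, hb⟩)
  have hle : ¬ M ≤ H := fun e => hM0 (eq_bot_iff.2 fun x hx => h0 x fun g => e (hMn.conj_mem x hx g))
  have hdec : ∀ g : G, ∃ m ∈ M, ∃ k ∈ H, m * k = g := fun g => by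
    have : g ∈ M ⊔ H := by
      rw [sup_comm, hH.2 _ (left_lt_sup.2 hle)]; trivial
    rw [← SetLike.mem_coe, normal_mul] at this
    exact this
  have hI : ∀ x ∈ M, x ∈ H → x = 1 := fun x hx hx' => h0 x fun g => by
    obtain ⟨m, hm', k, hk, rfl⟩ := hdec g
    rw [show m * k * x * (m * k)⁻¹ = m * (k * x * k⁻¹) * m⁻¹ by group, hcm m hm' _ (hMn.conj_mem x hx k),
      mul_inv_cancel_right]
    exact mul_mem (mul_mem hk hx') (inv_mem hk)
  obtain ⟨W, _, π, hπ⟩ := exists_sec (Z := ⊥) (N := M)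
    (fun a ha b hb => commutatorElement_eq_one_iff_mul_comm.2 (hcm a ha b hb))
    (fun a _ z hz => by rw [mem_bot.1 hz]; simp)
  obtain ⟨_, hact⟩ := hπ.exists_act
  have := hπ.finite
  have hW : Nat.card W = Nat.card M := by rw [hπ.card, relIndex_bot_left]
  have hcard : Nat.card W = H.index := by
    rw [hW, (isComplement'_of_disjoint_and_mul_eq_univ (H := M) (K := H)
      (disjoint_def.2 fun {x} => hI x) (Set.eq_univ_of_forall hdec)).index_eq_card]
  choose m hm k hk e using hdec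
  have hu : ∀ a ∈ M, ∀ b ∈ H, m (a * b) = a := fun a ha b hb => by
    refine inv_mul_eq_one.1 (hI _ (mul_mem (inv_mem (hm _)) ha) ?_)
    rw [show (m (a * b))⁻¹ * a = (m (a * b))⁻¹ * (a * b) * b⁻¹ by group]
    nth_rewrite 2 [← e (a * b)]
    rw [inv_mul_cancel_left]
    exact mul_mem (hk _) (inv_mem hb)
  refine ⟨W, inferInstance, inferInstance, inferInstance, fun g => π (m g), fun U hU => ?_, fun w => ?_,
    fun x y => ⟨fun h => ?_, fun h => ?_⟩, fun g x => ?_, hcard⟩
  · rcases hmin (hπ.pre U) ⟨fun x hx g => ⟨hMn.conj_mem x hx.1 g, hact g x hx.1 ▸ hU g _ hx.2⟩⟩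
      (fun x hx => hx.1) with e | e
    · refine Or.inl (eq_bot_iff.2 fun w hw => ?_)
      obtain ⟨a, ha, rfl⟩ := hπ.surj w
      rw [show a = 1 from mem_bot.1 (e ▸ ⟨ha, hw⟩), hπ.one]
      exact zero_mem _
    · refine Or.inr (eq_top_iff.2 fun w _ => ?_)
      obtain ⟨a, ha, rfl⟩ := hπ.surj w
      exact (e.ge ha).2
  · obtain ⟨a, ha, rfl⟩ := hπ.surj w
    exact ⟨a * 1, congrArg π (hu a ha 1 (one_mem H))⟩
  · have h1 : m x = m y := inv_mul_eq_one.1 ((hπ.eq_iff (hm x) (hm y)).1 h)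
    rw [← e x, ← e y, h1, show (m y * k x)⁻¹ * (m y * k y) = (k x)⁻¹ * k y by group]
    exact mul_mem (inv_mem (hk x)) (hk y)
  · refine congrArg π ?_
    have : y = m x * (k x * (x⁻¹ * y)) := by rw [← mul_assoc, e, mul_inv_cancel_left]
    rw [this, hu _ (hm x) _ (mul_mem (hk x) h)]
  · have h1 := hMn.conj_mem _ (hm x) (k g)
    have h2 : g * x = m g * (k g * m x * (k g)⁻¹) * (k g * k x) := by
      conv_lhs => rw [← e g, ← e x]
      group
    have h3 : g * m x * g⁻¹ = k g * m x * (k g)⁻¹ := by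
      conv_lhs => rw [← e g]
      rw [show m g * k g * m x * (m g * k g)⁻¹ = m g * (k g * m x * (k g)⁻¹) * (m g)⁻¹ by group,
        hcm _ (hm g) _ h1, mul_inv_cancel_right]
    beta_reduce
    rw [h2, hu _ (mul_mem (hm g) h1) _ (mul_mem (hk g) (hk x)), hπ.mul _ (hm g) _ h1, hact g _ (hm x), h3]

theorem jobAFF : JobAFF := fun G _ _ H hs hH => by
  let f := QuotientGroup.mk' H.normalCore
  have hf : Function.Surjective f := QuotientGroup.mk'_surjective _
  have hk : f.ker ≤ H := by rw [QuotientGroup.ker_mk']; exact H.normalCore_le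
  have hc : (H.map f).comap f = H := comap_map_eq_self hk
  obtain ⟨M, _, _, _, β, h⟩ := aff_core (H := H.map f) inferInstance
    ⟨fun e => hH.1 (by rw [← hc, e, comap_top]), fun K hK => by
      rw [← map_comap_eq_self_of_surjective hf K, hH.2 (K.comap f) (hc.ge.trans_lt (lt_of_le_of_ne
        (comap_mono hK.le) fun e => hK.ne (comap_injective hf e))), map_top_of_surjective f hf]⟩
    (fun x hx => by
      obtain ⟨x, rfl⟩ := hf x
      exact (QuotientGroup.eq_one_iff x).2 fun g => hc ▸ hx (f g))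
  let _ := DistribMulAction.compHom M f
  refine ⟨M, inferInstance, inferInstance, inferInstance, fun g => β (f g),
    fun U hU => h.irr U fun g => ?_, h.surj.comp hf, fun x y => ?_, fun g x => ?_, ?_⟩
  · obtain ⟨g, rfl⟩ := hf g
    exact hU g
  · rw [h.eq, ← map_inv, ← map_mul, ← mem_comap, hc]
  · exact (congrArg β (map_mul f g x)).trans (h.coc _ _)
  · rw [h.card, ← index_comap_of_surjective _ hf, hc]

section C

variable {K G V W : Type} [Field K] [Group G] [Finite G] [AddCommGroup V] [Module K V] [Nontrivial V]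
  [DistribMulAction G V] [AddCommGroup W] [Finite W] [DistribMulAction G W] {s : Scal K G V}
  {N : Subgroup G} {π : G → W} (c : Cx s N π)
include c

/-- The commutator form. -/
theorem exists_form : ∃ B : W → W →+ Additive Kˣ,
    (∀ a ∈ N, ∀ b ∈ N, s.ι (B (π a) (π b)).toMul = ⁅a, b⁆) ∧ (∀ w, B w w = 0) ∧
    (∀ w, (∀ x, B w x = 0) → w = 0) ∧
    ∀ (g : G) w x, s.ι (B (g • w) (g • x)).toMul = g * s.ι (B w x).toMul * g⁻¹ := by
  choose σ hσ eσ using c.sec.surj
  choose f hf using fun w x => c.ns.comm _ (hσ w) _ (hσ x)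
  have key : ∀ a ∈ N, ∀ b ∈ N, s.ι (f (π a) (π b)) = ⁅a, b⁆ := fun a ha b hb => by
    have h1 := (c.sec.eq_iff ha (hσ _)).1 (eσ _).symm
    have h2 := (c.sec.eq_iff hb (hσ _)).1 (eσ _).symm
    have k1 := c.ns.cent _ hb _ h1
    have k2 := c.ns.cent _ (hσ (π a)) _ h2
    rw [hf, ← mul_inv_cancel_left b (σ (π b)), comm_mul_right (c.ns.cc (hσ _) (c.ns.le h2) hb),
      commutatorElement_eq_one_iff_mul_comm.2 k2.symm, mul_one, ← mul_inv_cancel_left a (σ (π a))]
    generalize a⁻¹ * σ (π a) = z at k1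
    rw [commutatorElement_def, commutatorElement_def, mul_assoc a z b, k1]
    group
  have key' : ∀ w x, s.ι (f w x) = ⁅σ w, σ x⁆ := hf
  refine ⟨fun w => AddMonoidHom.mk' (fun x => Additive.ofMul (f w x)) fun x y => ?_, key, fun w => ?_,
    fun w h => ?_, fun g w x => ?_⟩
  · refine congrArg Additive.ofMul (s.inj ?_ : f w (x + y) = f w x * f w y)
    have := key _ (hσ w) _ (mul_mem (hσ x) (hσ y))
    rw [c.sec.mul _ (hσ x) _ (hσ y), eσ, eσ, eσ] at this
    rw [this, map_mul, key', key', comm_mul_right (c.ns.cc (hσ _) (hσ _) (hσ _))]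
  · exact congrArg Additive.ofMul (s.inj (by rw [key', map_one, commutatorElement_self]) : f w w = 1)
  · rw [← eσ w, c.sec.zero _ (hσ w)]
    refine c.ns.n2 _ fun a ha => (commutatorElement_eq_one_iff_mul_comm.1 ?_).symm
    rw [← key _ (hσ w) a ha, eσ, show f w (π a) = 1 from h (π a), map_one]
  · change s.ι (f _ _) = g * s.ι (f _ _) * g⁻¹
    conv_lhs => rw [← eσ w, ← eσ x, c.act g _ (hσ w), c.act g _ (hσ x)]
    rw [key _ (c.ns.nn.conj_mem _ (hσ w) g) _ (c.ns.nn.conj_mem _ (hσ x) g), conj_comm, key']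

omit c in
theorem mem_of_sq (ho : Odd s.ι.range.index) {X : Subgroup G} (hX : s.ι.range ≤ X) {g : G}
    (h : g ^ 2 ∈ X) : g ∈ X := by
  have := s.normal
  obtain ⟨k, hk⟩ := ho
  have h1 := hX (pow_index_mem _ g)
  rw [hk, pow_succ, pow_mul] at h1
  exact (mul_mem_cancel_left (pow_mem h k)).1 h1

theorem base2 (ho : Odd s.ι.range.index) : Base G W 2 := by
  let ρ := (DistribMulAction.toAddMonoidEnd G W).toHomUnits
  have := finite_end W
  have := c.sol
  have hd : Nat.card ρ.range ∣ s.ι.range.index := by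
    rw [← index_ker]
    exact index_dvd_of_le fun z hz => Units.ext (AddMonoidHom.ext (c.triv (c.ns.le hz)))
  obtain ⟨v, hv⟩ := base_odd (G := ρ.range) (V := W)
    (Group.isSolvable_of_surjective ρ.rangeRestrict_surjective) (ho.of_dvd_nat hd) fun U hU => by
      obtain ⟨W, hW, e⟩ := c.cr U fun g => hU (ρ.rangeRestrict g)
      exact ⟨W, by rintro ⟨_, g, rfl⟩; exact hW g, e⟩
  exact ⟨v, fun g => hv (ρ.rangeRestrict g)⟩

end C

theorem x13 : X13 := fun K G V W _ _ _ _ _ _ _ _ _ _ _ _ _ s N π c ho hW g hg => by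
  classical
  obtain ⟨B, -, B0, Bn, Bg⟩ := exists_form c
  have h3 : ∀ w : W, 3 • w = 0 := c.elem (k := 4) hW (by norm_num)
  have hz : ∀ x : Kˣ, x ^ 3 = 1 → g * s.ι x * g⁻¹ = s.ι x := fun x hx => by
    obtain ⟨y, hy⟩ := s.normal.conj_mem _ ⟨x, rfl⟩ g
    have y3 : y ^ 3 = 1 := s.inj (by rw [map_pow, hy, conj_pow, ← map_pow, hx]; simp)
    by_cases x1 : x = 1
    · simp [x1]
    have y1 : (y : K) - 1 ≠ 0 := fun e => x1 (s.inj (by
      rw [Units.val_eq_one.1 (sub_eq_zero.1 e), map_one] at hy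
      simpa using hy.symm))
    have x1' : (x : K) - 1 ≠ 0 := fun e => x1 (Units.val_eq_one.1 (sub_eq_zero.1 e))
    have ex : (x : K) ^ 3 = 1 := by rw [← Units.val_pow_eq_pow_val, hx, Units.val_one]
    have ey : (y : K) ^ 3 = 1 := by rw [← Units.val_pow_eq_pow_val, y3, Units.val_one]
    have e1 : (x : K) ^ 2 + x + 1 = 0 := mul_left_cancel₀ x1' (by linear_combination ex)
    have e2 : (y : K) ^ 2 + y + 1 = 0 := mul_left_cancel₀ y1 (by linear_combination ey)
    have e3 : ((y : K) - x) * (y - x ^ 2) = 0 := by linear_combination e2 - y * e1 + ex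
    rcases mul_eq_zero.1 e3 with e | e
    · rw [← hy, Units.ext (sub_eq_zero.1 e)]
    · have e4 : y = x ^ 2 := Units.ext (by rw [Units.val_pow_eq_pow_val]; exact sub_eq_zero.1 e)
      refine mul_inv_eq_iff_eq_mul.2 (mem_centralizer_singleton_iff.1
        (mem_of_sq ho (X := centralizer {s.ι x}) (fun z hz => mem_centralizer_singleton_iff.2
          (c.ns.cent _ (c.ns.le ⟨x, rfl⟩) z hz)) (mem_centralizer_singleton_iff.2 ?_)))
      rw [← mul_inv_eq_iff_eq_mul, show g ^ 2 * s.ι x * (g ^ 2)⁻¹ = g * (g * s.ι x * g⁻¹) * g⁻¹ by rw [pow_two]; group,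
        ← hy, e4, map_pow, ← conj_pow, ← hy, ← map_pow, e4, ← pow_mul, show 2 * 2 = 3 + 1 from rfl, pow_succ, hx,
        one_mul]
  have B3 : ∀ w x, (B w x).toMul ^ 3 = 1 := fun w x => by
    rw [← toMul_nsmul, ← map_nsmul, h3, map_zero, toMul_zero]
  have Bi : ∀ u, g • u = u → ∀ x, B u (g • x) = B u x := fun u hu x => by
    have := Bg g u x
    rw [hu, hz _ (B3 u x)] at this
    exact s.inj this
  by_contra hne
  have : Fact (Nat.Prime 13) := ⟨by norm_num⟩
  have := Fintype.ofFinite W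
  have h1 := Equiv.Perm.card_fixedPoints_modEq (f := (fun w : W => g • w : Function.End W)) (p := 13) (n := 1)
    (funext fun w => by
      have : ∀ n : ℕ, ((show Function.End W from fun w : W => g • w) ^ n) w = g ^ n • w := fun n => by
        induction n with
        | zero => rw [pow_zero, pow_zero, one_smul]; rfl
        | succ n ih => rw [pow_succ', pow_succ', mul_smul, ← ih]; rfl
      exact (this _).trans (hg w))
  rw [← Nat.card_eq_fintype_card, ← Nat.card_eq_fintype_card, hW] at h1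
  change 81 ≡ Nat.card (fix W g) [MOD 13] at h1
  have h2 : Nat.card (fix W g) ∣ 3 ^ 4 := (AddSubgroup.card_addSubgroup_dvd_card _).trans (hW ▸ dvd_rfl)
  have h4 : Nat.card (fix W g) = 3 := by
    obtain ⟨i, hi, e⟩ := (Nat.dvd_prime_pow Nat.prime_three).1 h2
    have : i ≠ 4 := fun e4 => hne fun w => by
      have : fix W g = ⊤ := AddSubgroup.eq_top_of_card_eq _ (by rw [e, e4, hW]; rfl)
      exact mem_fix.1 (this ▸ trivial)
    rw [e] at h1 ⊢
    interval_cases i <;> first | rfl | exact absurd h1 (by decide) | exact absurd rfl this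
  have : Fact (Nat.Prime 3) := ⟨Nat.prime_three⟩
  have : Nontrivial (fix W g) := Finite.one_lt_card_iff_nontrivial.1 (by omega)
  obtain ⟨u, hu⟩ := exists_ne (0 : fix W g)
  refine hu (Subtype.ext (Bn u fun x => ?_))
  have h5 : ∑ i ∈ Finset.range 13, g ^ i • x ∈ fix W g := by
    have e := Finset.sum_range_succ (fun i => g ^ i • x) 13
    rw [Finset.sum_range_succ', hg, pow_zero, one_smul, add_left_inj] at e
    rw [mem_fix, Finset.smul_sum, ← e]
    exact Finset.sum_congr rfl fun i _ => by rw [pow_succ', mul_smul]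
  obtain ⟨n, hn⟩ := (zmultiples_eq_top_of_prime_card h4 hu).ge (AddSubgroup.mem_top ⟨_, h5⟩)
  have h6 : B u (∑ i ∈ Finset.range 13, g ^ i • x) = 0 := by
    rw [show ∑ i ∈ Finset.range 13, g ^ i • x = n • (u : W) from (congrArg Subtype.val hn).symm, map_zsmul, B0,
      smul_zero]
  have h7 : ∀ i : ℕ, B u (g ^ i • x) = B u x := fun i => by
    induction i with
    | zero => rw [pow_zero, one_smul]
    | succ i ih => rw [pow_succ', mul_smul, Bi u u.2, ih]
  rw [map_sum, Finset.sum_congr rfl fun i _ => h7 i, Finset.sum_const, Finset.card_range,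
    show 13 = 4 * 3 + 1 from rfl, succ_nsmul, mul_nsmul', ← map_nsmul _ 3, h3, map_zero, smul_zero, zero_add] at h6
  exact h6

theorem relIndex_le {G W : Type} [Group G] [Finite W] [MulAction G W] (X : Subgroup G) (w : W) (S : Set W)
    (h : ∀ g ∈ X, g • w ∈ S) : (stabilizer G w).relIndex X ≤ S.ncard := by
  rw [show (stabilizer G w).relIndex X = (stabilizer X w).index from rfl, index_stabilizer]
  exact Set.ncard_le_ncard (by rintro _ ⟨g, rfl⟩; exact h g g.2)

theorem jobO27 : JobO27 := fun K G V W _ _ _ _ _ _ _ _ _ _ _ _ _ s N π c ho hW => by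
  obtain ⟨B, -, -, Bn, Bg⟩ := exists_form c
  obtain ⟨v, hv⟩ := base2 c ho
  have h3 : ∀ w : W, 3 • w = 0 := c.elem (k := 6) hW (by norm_num)
  set C := centralizer (s.ι.range : Set G)
  have e1 : N = stabilizer G (v 1) ⊓ (stabilizer G (v 0) ⊓ C) :=
    le_antisymm (fun a ha => ⟨c.triv ha _, c.triv ha _, c.le_C ha⟩) fun a ha =>
      c.ker ha.2.2 (hv a fun i => by fin_cases i; exacts [ha.2.1, ha.1])
  rw [← relIndex_mul_relIndex _ N C c.ns.le c.le_C, ← c.sec.card, hW]
  refine Nat.mul_le_mul_left _ ?_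
  rw [← relIndex_mul_relIndex N (stabilizer G (v 0) ⊓ C) C (e1.le.trans inf_le_right) inf_le_right, e1,
    inf_relIndex_right, inf_relIndex_right]
  by_cases h0 : v 0 = 0
  · have k1 := relIndex_le (stabilizer G (v 0) ⊓ C) (v 1) Set.univ fun _ _ => trivial
    have k2 := relIndex_le C (v 0) {0} fun g _ => by rw [h0, smul_zero]; rfl
    rw [Set.ncard_univ, hW] at k1
    rw [Set.ncard_singleton] at k2
    exact (Nat.mul_le_mul k1 k2).trans (by norm_num)
  rw [mul_comm]
  refine Nat.mul_le_mul ?_ ?_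
  · refine (relIndex_le C (v 0) (orbit G (v 0)) fun g _ => mem_orbit _ g).trans ?_
    have d1 : Disjoint (orbit G (v 0)) (Neg.neg '' orbit G (v 0)) := Set.disjoint_left.2 (by
      rintro _ ⟨g, rfl⟩ ⟨_, ⟨k, rfl⟩, e⟩
      have e2 : (k⁻¹ * g) • v 0 = -v 0 := by
        rw [mul_smul, inv_smul_eq_iff, smul_neg]; exact e.symm
      have e3 : (k⁻¹ * g) • v 0 = v 0 := mem_of_sq ho (X := stabilizer G (v 0))
        (fun z hz => c.triv (c.ns.le hz) _) (by
          rw [mem_stabilizer_iff, pow_two, mul_smul, e2, smul_neg, e2, neg_neg])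
      have := h3 (v 0)
      rw [succ_nsmul, two_nsmul, eq_neg_iff_add_eq_zero.1 (e3.symm.trans e2), zero_add] at this
      exact h0 this)
    have d2 : (0 : W) ∉ orbit G (v 0) ∪ Neg.neg '' orbit G (v 0) := by
      rintro (⟨g, e⟩ | ⟨_, ⟨g, rfl⟩, e⟩)
      · exact h0 ((smul_eq_zero_iff_eq g).1 e)
      · exact h0 ((smul_eq_zero_iff_eq g).1 (neg_eq_zero.1 e))
    have := Set.ncard_le_card (insert 0 (orbit G (v 0) ∪ Neg.neg '' orbit G (v 0)))
    rw [Set.ncard_insert_of_notMem d2, Set.ncard_union_eq d1, Set.ncard_image_of_injective _ neg_injective,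
      hW] at this
    omega
  · refine (relIndex_le _ (v 1) ((· + v 1) '' ((B (v 0)).ker : Set W)) fun g hg =>
      ⟨g • v 1 - v 1, ?_, sub_add_cancel _ _⟩).trans ?_
    · have := Bg g (v 0) (v 1)
      rw [mem_stabilizer_iff.1 hg.1, ← hg.2 _ ⟨_, rfl⟩, mul_inv_cancel_right] at this
      rw [SetLike.mem_coe, AddMonoidHom.mem_ker, map_sub, sub_eq_zero]
      exact s.inj this
    · rw [Set.ncard_image_of_injective _ (add_left_injective _)]
      change Nat.card (B (v 0)).ker ≤ 243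
      obtain ⟨i, hi, e⟩ := (Nat.dvd_prime_pow Nat.prime_three).1
        ((AddSubgroup.card_addSubgroup_dvd_card (B (v 0)).ker).trans (hW ▸ dvd_rfl : Nat.card W ∣ 3 ^ 6))
      have : i ≠ 6 := fun e6 => h0 (Bn _ fun x => by
        have : (B (v 0)).ker = ⊤ := AddSubgroup.eq_top_of_card_eq _ (by rw [e, e6, hW]; rfl)
        exact AddMonoidHom.mem_ker.1 (this ▸ trivial))
      rw [e]
      exact Nat.pow_le_pow_right (by norm_num) (show i ≤ 5 by omega)

end H7.VCA
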