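/- On regular elements, the generalized characters of the principal block of a central
`p`-extension are inflated from generalized characters of the principal block of the quotient. -/
import Cfsg.Agent.H34.X3Spec

namespace H7.X3Ca

open Cfsg H28 H35 H34
open scoped ComplexConjugate

universe u

theorem lat {ι V : Type*} [Fintype ι] [AddCommGroup V] [Module ℂ V] (F : (ι → ℤ) →+ V)
    (T : (ι → ℤ) →+ ℂ) (h : ∀ v, F v = 0 → ∃ m : ℤ, T v = m) :
    ∃ a : ι → ℤ, ∀ v, F v = 0 → T v = ∑ i, (v i : ℂ) * a i := by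
  classical
  have : IsAddTorsionFree V := .of_isTorsionFree ℂ V
  obtain ⟨r, hr⟩ := F.toIntLinearMap.rangeRestrict.exists_rightInverse_of_surjective
    (LinearMap.range_rangeRestrict _)
  let ρ : (ι → ℤ) →ₗ[ℤ] (ι → ℤ) := LinearMap.id - r ∘ₗ F.toIntLinearMap.rangeRestrict
  have h1 : ∀ v, F (ρ v) = 0 := fun v => by
    have := congrArg Subtype.val (LinearMap.congr_fun hr (F.toIntLinearMap.rangeRestrict v))
    simp only [ρ, LinearMap.sub_apply, map_sub, LinearMap.id_apply, LinearMap.comp_apply]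
    exact sub_eq_zero.2 this.symm
  choose a ha using fun i => h _ (h1 (Pi.single i 1))
  refine ⟨a, fun v hv => ?_⟩
  have h2 : ρ v = v := by
    have : F.toIntLinearMap.rangeRestrict v = 0 := Subtype.ext hv
    simp only [ρ, LinearMap.sub_apply, LinearMap.id_apply, LinearMap.comp_apply, this, map_zero,
      sub_zero]
  have h3 : v = ∑ i, v i • Pi.single i 1 := by
    ext j; simp [Finset.sum_apply, Pi.single_apply]
  conv_lhs => rw [← h2, h3]
  simp only [map_sum, map_zsmul, ha]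
  simp only [zsmul_eq_mul]

variable {C Q : Type*} [Group C] [Group Q] [Fintype C] [Fintype Q] {p : ℕ} {M : Ideal AlgInt}
  [M.IsMaximal] {π : C →* Q}

theorem expand_int (hM : IsPModular p M) (hπ : Function.Surjective π) (hP : IsPGroup p π.ker)
    (hZ : π.ker ≤ Subgroup.center C) {ψ : C → ℂ} (hg : IsGeneralizedCharacter C ψ)
    (hψ : InB (principalBlock M C) ψ) :
    ∃ A, IsGeneralizedCharacter Q A ∧ InB (principalBlock M Q) A ∧
      ∀ y, ¬ p ∣ orderOf y → ψ y = A (π y) := by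
  classical
  obtain ⟨F₀, hF, e⟩ := H29.InB.expand hM hπ hP hZ hψ
  have hB : IsPBlock M (principalBlock M Q) := isPBlock_principalBlock
  generalize principalBlock M Q = B at hF hB ⊢
  let Φ : (IrrCharacter Q → ℤ) →+ (Q → ℂ) := AddMonoidHom.mk'
    (fun v => ∑ χ ∈ bF B, (v χ : ℂ) • (χ : Q → ℂ)) fun v w => by
      simp [add_smul, Finset.sum_add_distrib]
  have hΦ : ∀ v, Φ v = ∑ χ ∈ bF B, (v χ : ℂ) • (χ : Q → ℂ) := fun _ => rfl
  obtain ⟨a, ha⟩ := lat (V := {q : Q // p ∣ orderOf q} → ℂ)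
    (AddMonoidHom.mk' (fun v q => Φ v q) fun v w => by ext; simp)
    (AddMonoidHom.mk' (fun v => classInner F₀ (Φ v)) fun v w => by
      rw [map_add, classInner_add_right]) fun v hv => by
    have h0 : ∀ q, p ∣ orderOf q → Φ v q = 0 := fun q hq => congrFun hv ⟨q, hq⟩
    obtain ⟨m, hm⟩ := Lc_int hM hπ hP hZ (isGenChar_sum_bF v) h0 hg
    exact ⟨m, by rw [← hm, Lc_congr _ e, ← hΦ, Lc_comp' hM.1 hπ hP hZ h0]; rfl⟩
  refine ⟨Φ a, isGenChar_sum_bF a, inB_sum_bF _, fun y hy => ?_⟩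
  have hy' := H29.not_dvd_orderOf_map (π := π) hy
  rw [e y hy, ← pReg_of_reg F₀ hy', ← pReg_of_reg (Φ a) hy']
  refine congrFun ((hF.pReg hM hB).ext (InB.pReg hM hB (inB_sum_bF _)) fun χ hχ => ?_) _
  have h1 := ((inB_irr hχ).pReg hM hB).smul ((p ^ (Nat.card Q).factorization p : ℕ) : ℂ)
  obtain ⟨v, hv, hv0, -⟩ := h1.exists_int (isGenChar_tilde hM.1 χ.2.isGeneralizedCharacter)
  have h2 : Φ v = ((p ^ (Nat.card Q).factorization p : ℕ) : ℂ) • pRegularPart p (χ : Q → ℂ) := by
    rw [h1.eq_sum, hΦ]; simp only [hv]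
  have h3 : classInner F₀ (Φ v) = classInner (Φ a) (Φ v) := by
    refine (ha v (funext fun q => ?_)).trans ?_
    · change Φ v q = 0
      rw [h2, Pi.smul_apply, pReg_of_sing _ q.2, smul_zero]
    · rw [← sum_bF_eq_sum_univ (B := B) fun ξ hξ => by rw [hv0 ξ hξ]; simp, hΦ v,
        classInner_sum_right]
      refine Finset.sum_congr rfl fun ξ hξ => ?_
      rw [classInner_smul_right, hΦ, classInner_sum_bF _ (mem_bF.1 hξ), map_intCast]
  rw [h2, classInner_smul_right, classInner_smul_right] at h3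
  rw [classInner_pReg_left, classInner_pReg_left]
  exact mul_left_cancel₀ (by simp [hM.1.ne_zero]) h3

theorem jobCa : H34.X3.JobCa.{u} := fun _ _ _ _ _ _ _ _ _ _ _ _ _ _ hM h _ hg hψ =>
  expand_int hM h.surj h.pg h.le hg hψ

end H7.X3Ca
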